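import Cfsg.Agent.Lib.JankoThree.CharsCheck

/-!
The seven functions and the congruence function are generalised characters.
-/

set_option autoImplicit false
set_option maxRecDepth 100000
set_option Elab.async false

open Cfsg
open scoped ComplexConjugate

namespace CfsgLib.JankoThree

theorem lam_mul {j : Fin 8} {x y : ℕ} (hx : x < 1920) (hy : y < 1920) (hx' : lam j x < 6)
    (hy' : lam j y < 6) : lam j (cmul x y) = (lam j x + lam j y) % 6 := by
  have h := lam_hom_check j
  simp only [List.all_eq_true] at h
  exact Nat.eq_of_beq_eq_true (h x (by simp [lamList, hx, hx']) y (by simp [lamList, hy, hy']))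

theorem lam_zero (j : Fin 8) : lam j 0 = 0 := by
  have h := lam_inv_check j
  simp only [Bool.and_eq_true] at h
  exact Nat.eq_of_beq_eq_true h.1.2

/-- The subgroups. -/
def Sub (j : Fin 8) : Subgroup K where
  carrier := {x | lam j (code x) < 6}
  one_mem' := by simp [code_one, lam_zero]
  mul_mem' {x y} hx hy := by
    show lam j (code (x * y)) < 6
    rw [code_mul, lam_mul (code_lt x) (code_lt y) hx hy]
    exact Nat.mod_lt _ (by norm_num)
  inv_mem' {x} hx := by
    show lam j (code x⁻¹) < 6
    have h := lam_inv_check j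
    simp only [Bool.and_eq_true, List.all_eq_true] at h
    rw [code_inv]
    exact of_decide_eq_true (h.1.1 (code x) (by
      simp only [lamList, List.mem_filter, List.mem_range, decide_eq_true_eq]
      exact ⟨code_lt x, hx⟩))

theorem mem_Sub {j : Fin 8} {x : K} : x ∈ Sub j ↔ lam j (code x) < 6 := Iff.rfl

theorem card_Sub (j : Fin 8) : Nat.card (Sub j) = lamSize j := by
  classical
  have h := lam_inv_check j
  simp only [Bool.and_eq_true] at h
  rw [← Nat.eq_of_beq_eq_true h.2, Nat.card_eq_fintype_card, Fintype.card_subtype, lamList,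
    ← List.toFinset_card_of_nodup ((List.nodup_range).filter _)]
  refine Finset.card_bij (fun x _ => code x) ?_ ?_ ?_
  · intro x hx
    simpa [lamList, code_lt x, mem_Sub] using hx
  · exact fun x _ y _ h => code_inj h
  · intro n hn
    simp only [List.mem_toFinset, List.mem_filter, List.mem_range, decide_eq_true_eq] at hn
    exact ⟨ofCode n, by simpa [mem_Sub, code_ofCode hn.1] using hn.2, code_ofCode hn.1⟩

/-- A primitive sixth root of unity. -/
noncomputable def six : ℂ := Complex.exp (2 * Real.pi * Complex.I / (6 : ℕ))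

theorem isPrimitiveRoot_six : IsPrimitiveRoot six 6 := Complex.isPrimitiveRoot_exp 6 (by norm_num)

theorem six_cube : six ^ 3 = -1 :=
  (isPrimitiveRoot_six.pow (by norm_num) (show 6 = 3 * 2 by rfl)).eq_neg_one_of_two_right

theorem six_sq : six ^ 2 = six - 1 := by
  have h : (six + 1) * (six ^ 2 - six + 1) = 0 := by linear_combination six_cube
  rcases mul_eq_zero.1 h with h1 | h1
  · exfalso
    have h2 : six ^ 2 = 1 := by linear_combination (six - 1) * h1
    exact isPrimitiveRoot_six.pow_ne_one_of_pos_of_lt (l := 2) (by norm_num) (by norm_num) h2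
  · linear_combination h1

/-- The linear character. -/
noncomputable def chi (j : Fin 8) : Sub j →* ℂˣ where
  toFun x := ((isPrimitiveRoot_six.isUnit (by norm_num)).unit) ^ lam j (code (x : K))
  map_one' := by simp [code_one, lam_zero]
  map_mul' x y := by
    rw [← pow_add, Subgroup.coe_mul, code_mul,
      lam_mul (code_lt _) (code_lt _) x.2 y.2]
    conv_rhs => rw [← Nat.mod_add_div (lam j (code (x : K)) + lam j (code (y : K))) 6, pow_add,
      pow_mul, show ((isPrimitiveRoot_six.isUnit (by norm_num)).unit) ^ 6 = 1 from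
        Units.ext (by simpa using isPrimitiveRoot_six.pow_eq_one), one_pow, mul_one]

theorem six_pow : ∀ e : ℕ, e < 6 → six ^ e = (wRe e : ℂ) + (wIm e : ℂ) * six := by
  intro e he
  interval_cases e <;> simp only [wRe, wIm] <;> push_cast
  · simp
  · simp
  · linear_combination six_sq
  · linear_combination six_cube
  · linear_combination six * six_cube
  · linear_combination six ^ 2 * six_cube - six_sq

theorem extend_chi (j : Fin 8) (x : K) :
    extendByZero (Sub j) (fun h => (chi j h : ℂ)) x =
      (wRe (lam j (code x)) : ℂ) + (wIm (lam j (code x)) : ℂ) * six := by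
  by_cases h : x ∈ Sub j
  · rw [Frobenius.extendByZero_of_mem _ _ h, ← six_pow _ h]
    simp [chi]
  · rw [Frobenius.extendByZero_of_not_mem _ _ h]
    have h' : ¬ lam j (code x) < 6 := h
    have hr : ∀ e, ¬ e < 6 → wRe e = 0 ∧ wIm e = 0 := by
      intro e he
      obtain ⟨m, rfl⟩ : ∃ m, e = m + 6 := ⟨e - 6, by omega⟩
      exact ⟨rfl, rfl⟩
    simp [(hr _ h').1, (hr _ h').2]

theorem indFun_chi (j : Fin 8) (x : K) :
    indFun (Sub j) (fun h => (chi j h : ℂ)) x = (indVal j (ty x) : ℂ) := by
  classical
  have hgc := Frobenius.isGeneralizedCharacter_indFun (G := K) (Sub j) _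
    (Brauer.isGeneralizedCharacter_of_isCharacter (Brauer.isCharacter_monoidHom (chi j)))
  obtain ⟨h, hh⟩ := exists_conj_rep x
  have hcl := Brauer.isClassFunction_of_isGeneralizedCharacter hgc (rep (ty x)) h
  rw [hh] at hcl
  rw [hcl]
  simp only [indFun, extend_chi, card_Sub]
  have hs : ∀ F : ℕ → ℤ, ∑ y : K, F (code y) = ((List.range 1920).map F).sum := by
    intro F
    rw [← List.sum_toFinset _ List.nodup_range]
    refine Finset.sum_bij (fun y _ => code y) (fun y _ => by simp [code_lt y])
      (fun y _ z _ h => code_inj h) (fun n hn => ?_) (fun _ _ => rfl)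
    simp only [List.mem_toFinset, List.mem_range] at hn
    exact ⟨ofCode n, Finset.mem_univ _, code_ofCode hn⟩
  have hc : ∀ y : K, code (y⁻¹ * rep (ty x) * y) =
      cmul (cmul (cinv (code y)) (crep (ty x).val)) (code y) := fun y => by
    rw [code_mul, code_mul, code_inv, rep, code_ofCode (crep_lt _)]
  simp only [hc, Finset.sum_add_distrib, ← Finset.sum_mul, ← Int.cast_sum]
  rw [hs fun n => wRe (lam j (cmul (cmul (cinv n) (crep (ty x).val)) n)),
    hs fun n => wIm (lam j (cmul (cmul (cinv n) (crep (ty x).val)) n))]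
  have hf : ∀ l : List ℕ, l.foldr (fun h s =>
      let e := lam j (cmul (cmul (cinv h) (crep (ty x).val)) h)
      (wRe e + s.1, wIm e + s.2)) ((0, 0) : ℤ × ℤ) =
      ((l.map fun n => wRe (lam j (cmul (cmul (cinv n) (crep (ty x).val)) n))).sum,
        (l.map fun n => wIm (lam j (cmul (cmul (cinv n) (crep (ty x).val)) n))).sum) := by
    intro l
    induction l with
    | nil => rfl
    | cons a l ih => simp only [List.foldr_cons, ih, List.map_cons, List.sum_cons]
  have hck := indSum_check j (ty x)
  rw [indSum, hf] at hck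
  simp only [Prod.mk.injEq] at hck
  rw [hck.1, hck.2]
  have hpos : (lamSize j : ℂ) ≠ 0 := by
    rw [← card_Sub]; exact_mod_cast Nat.card_pos.ne'
  push_cast
  field_simp
  ring

theorem five_ty (x : K) : JankoOrder.ty (A.toAlt x.right) = five (ty x) := by
  have h := five_check ⟨code x, code_lt x⟩
  have e : (Fin.ofNat 60 (code x / 32)) = x.right.val := by
    ext
    have := x.left.val.isLt
    have := x.right.val.isLt
    simp [code]; omega
  rw [e, ← fiveA_eq] at h
  exact h.symm ▸ rfl

/-- The predicate of being the value table of a generalised character. -/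
def Good (v : Fin 16 → Zu) : Prop := IsGeneralizedCharacter K fun x => Zu.toC (v (ty x))

theorem Good.congr {v w : Fin 16 → Zu} (h : Good v) (e : ∀ i, v i = w i) : Good w := by
  rwa [← funext e]

theorem Good.add {v w : Fin 16 → Zu} (hv : Good v) (hw : Good w) : Good fun i => v i + w i := by
  refine (congrArg (IsGeneralizedCharacter K) ?_).mp
    (Coherence.isGeneralizedCharacter_add hv hw)
  funext x
  simp [Zu.toC_add]

theorem Good.sub {v w : Fin 16 → Zu} (hv : Good v) (hw : Good w) : Good fun i => v i - w i := by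
  refine (congrArg (IsGeneralizedCharacter K) ?_).mp
    (Brauer.isGeneralizedCharacter_sub hv hw)
  funext x
  simp [Zu.toC_sub]

theorem Good.mul {v w : Fin 16 → Zu} (hv : Good v) (hw : Good w) : Good fun i => v i * w i := by
  refine (congrArg (IsGeneralizedCharacter K) ?_).mp
    (Brauer.isGeneralizedCharacter_mul hv hw)
  funext x
  simp [Zu.toC_mul]

theorem good_one : Good fun _ => 1 := by
  refine (congrArg (IsGeneralizedCharacter K) ?_).mp Brauer.isGeneralizedCharacter_one
  funext x
  simp [Zu.toC_one]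

theorem good_ind (j : Fin 8) : Good fun i => ⟨indVal j i, 0⟩ := by
  refine (congrArg (IsGeneralizedCharacter K) ?_).mp (Frobenius.isGeneralizedCharacter_indFun
    (G := K) (Sub j) _
    (Brauer.isGeneralizedCharacter_of_isCharacter (Brauer.isCharacter_monoidHom (chi j))))
  funext x
  rw [indFun_chi, Zu.toC_int]

/-- The values on `A₅`. -/
def valA : Fin 3 → Fin 5 → Zu :=
  ![![⟨4, 0⟩, ⟨0, 0⟩, ⟨1, 0⟩, ⟨-1, 0⟩, ⟨-1, 0⟩], ![⟨4, 0⟩, ⟨0, 0⟩, ⟨1, 0⟩, ⟨2, 1⟩, ⟨1, -1⟩],
    ![⟨4, 0⟩, ⟨0, 0⟩, ⟨1, 0⟩, ⟨1, -1⟩, ⟨2, 1⟩]]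

theorem good_valA (k : Fin 3) : Good fun i => valA k (five i) := by
  refine (congrArg (IsGeneralizedCharacter K) ?_).mp (Coherence.isGeneralizedCharacter_comp
    (JankoOrder.isGeneralizedCharacter_val (Fin.castSucc k))
    (A.toAlt.toMonoidHom.comp SemidirectProduct.rightHom))
  funext x
  show JankoOrder.val (Fin.castSucc k) (JankoOrder.ty (A.toAlt x.right)) =
    Zu.toC (valA k (five (ty x)))
  rw [five_ty]
  generalize five (ty x) = i
  fin_cases k <;> fin_cases i <;> simp [JankoOrder.val, valA, Zu.toC] <;> ring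

/-- The constituents from which the functions are assembled. -/
def part : Fin 13 → Fin 16 → Zu :=
  let p := fun k i => valA k (five i)
  let h := fun j i => (⟨indVal j i, 0⟩ : Zu)
  let e1 := fun i => p 1 i - 1
  let e2 := fun i => p 2 i - 1
  let e5 := fun i => p 0 i * p 0 i - 1 - e1 i - e2 i - p 0 i
  let e15 := fun i => h 5 i - h 4 i
  let e13 := fun i => h 6 i - e15 i
  ![fun _ => 1, e1, e2, p 0, h 7, e5, fun i => 1 + p 0 i + e5 i + h 1 i - h 2 i,
    fun i => h 4 i * e2 i - e13 i - e15 i, fun i => h 4 i * e1 i - e13 i - e15 i,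
    fun i => h 7 i * h 7 i - 1 - p 0 i, e13, fun i => h 0 i - h 3 i, e15]

theorem good_part : ∀ k : Fin 13, Good (part k) := by
  have g1 : Good fun i => valA 1 (five i) - 1 := (good_valA 1).sub good_one
  have g2 : Good fun i => valA 2 (five i) - 1 := (good_valA 2).sub good_one
  have g5 := ((((good_valA 0).mul (good_valA 0)).sub good_one).sub g1).sub g2 |>.sub (good_valA 0)
  have g15 := (good_ind 5).sub (good_ind 4)
  have g13 := (good_ind 6).sub g15
  intro k
  fin_cases k
  · exact good_one
  · exact g1
  · exact g2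
  · exact good_valA 0
  · exact good_ind 7
  · exact g5
  · exact (((good_one.add (good_valA 0)).add g5).add (good_ind 1)).sub (good_ind 2)
  · exact (((good_ind 4).mul g2).sub g13).sub g15
  · exact (((good_ind 4).mul g1).sub g13).sub g15
  · exact (((good_ind 7).mul (good_ind 7)).sub good_one).sub (good_valA 0)
  · exact g13
  · exact (good_ind 0).sub (good_ind 3)
  · exact g15

theorem al_eq : ∀ i : Fin 16,
    al 0 i = part 8 i - part 1 i - part 4 i ∧ al 1 i = part 7 i - part 2 i - part 4 i ∧
    al 2 i = part 11 i - part 3 i - part 10 i ∧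
    al 3 i = part 4 i + part 11 i - part 12 i - part 0 i ∧
    al 4 i = part 12 i - part 3 i - part 5 i - part 4 i * part 2 i ∧
    al 5 i = part 10 i - part 1 i - part 2 i - part 6 i ∧
    al 6 i = part 5 i + ⟨indVal 4 i, 0⟩ - part 9 i - part 0 i ∧
    (⟨phi i, 0⟩ : Zu) = part 1 i + part 2 i + part 4 i + part 9 i - ⟨indVal 4 i, 0⟩ := by
  decide +kernel

/-- The seven functions. -/
noncomputable def alphaK (j : Fin 7) (x : K) : ℂ := Zu.toC (al j (ty x))

/-- The congruence function. -/
noncomputable def phiK (x : K) : ℂ := (phi (ty x) : ℂ)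

theorem isGeneralizedCharacter_alphaK (j : Fin 7) : IsGeneralizedCharacter K (alphaK j) := by
  have g := good_part
  fin_cases j
  · exact ((((g 8).sub (g 1)).sub (g 4)).congr fun i => (al_eq i).1.symm :)
  · exact ((((g 7).sub (g 2)).sub (g 4)).congr fun i => (al_eq i).2.1.symm :)
  · exact ((((g 11).sub (g 3)).sub (g 10)).congr fun i => (al_eq i).2.2.1.symm :)
  · exact (((((g 4).add (g 11)).sub (g 12)).sub (g 0)).congr fun i => (al_eq i).2.2.2.1.symm :)
  · exact (((((g 12).sub (g 3)).sub (g 5)).sub ((g 4).mul (g 2))).congr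
      fun i => (al_eq i).2.2.2.2.1.symm :)
  · exact (((((g 10).sub (g 1)).sub (g 2)).sub (g 6)).congr fun i => (al_eq i).2.2.2.2.2.1.symm :)
  · exact (((((g 5).add (good_ind 4)).sub (g 9)).sub (g 0)).congr
      fun i => (al_eq i).2.2.2.2.2.2.1.symm :)

theorem isGeneralizedCharacter_phiK : IsGeneralizedCharacter K phiK := by
  have g := good_part
  have h : Good fun i => (⟨phi i, 0⟩ : Zu) :=
    (((((g 1).add (g 2)).add (g 4)).add (g 9)).sub (good_ind 4)).congr
      fun i => (al_eq i).2.2.2.2.2.2.2.symm
  refine (congrArg (IsGeneralizedCharacter K) ?_).mp h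
  funext x
  simp [phiK, Zu.toC_int]

end CfsgLib.JankoThree
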