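import Cfsg.Agent.Lib.JankoThree.Values

/-!
Finite checks on the induced characters.
-/

set_option autoImplicit false
set_option maxRecDepth 100000
set_option Elab.async false

open Cfsg
open scoped ComplexConjugate

namespace CfsgLib.JankoThree

/-- The codes of a subgroup. -/
def lamList (j : Fin 8) : List ℕ := (List.range 1920).filter fun n => decide (lam j n < 6)

theorem lam_hom_check : ∀ j : Fin 8, (lamList j).all (fun x => (lamList j).all fun y =>
    (lam j (cmul x y)).beq ((lam j x + lam j y) % 6)) = true := by
  intro j
  fin_cases j <;> decide +kernel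

theorem lam_inv_check : ∀ j : Fin 8, ((lamList j).all (fun x => decide (lam j (cinv x) < 6)) &&
    (lam j 0).beq 0 && ((lamList j).length.beq (lamSize j))) = true := by
  decide +kernel

/-- The weight giving the rational part. -/
def wRe : ℕ → ℤ
  | 0 => 1
  | 2 => -1
  | 3 => -1
  | 5 => 1
  | _ => 0

/-- The weight giving the coefficient of the root. -/
def wIm : ℕ → ℤ
  | 1 => 1
  | 2 => 1
  | 4 => -1
  | 5 => -1
  | _ => 0

/-- Accumulated weights over all conjugates. -/
def indSum (j : Fin 8) (i : Fin 16) : ℤ × ℤ :=
  (List.range 1920).foldr (fun h s =>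
    let e := lam j (cmul (cmul (cinv h) (crep i.val)) h)
    (wRe e + s.1, wIm e + s.2)) (0, 0)

theorem indSum_check : ∀ j : Fin 8, ∀ i : Fin 16,
    indSum j i = ((lamSize j : ℤ) * indVal j i, 0) := by
  intro j
  fin_cases j <;> decide +kernel

theorem crep_lt : ∀ i : Fin 16, crep i.val < 1920 := by decide +kernel

theorem five_check : ∀ n : Fin 1920, five (Fin.ofNat 16 (cty n.val)) =
    fiveA (Fin.ofNat 60 (n.val / 32)) := by
  decide +kernel

/-- A permutation as an element of the alternating group. -/
def altOf (a : Fin 60) : alternatingGroup (Fin 5) := ⟨A.perm ⟨a⟩, A.perm_mem a⟩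

theorem fiveA_eq : ∀ a : Fin 60, JankoOrder.ty (altOf a) = fiveA a := by decide +kernel

end CfsgLib.JankoThree
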