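import Cfsg.Agent.Lib.JankoThree.Values

/-!
Finite checks in `2^(1+4) : A₅`: special classes, fusion, pairs of involutions, a Sylow
`2`-subgroup.
-/

set_option autoImplicit false
set_option maxRecDepth 100000
set_option Elab.async false

namespace CfsgLib.JankoThree

/-- Power making an element of a special class the central involution, `0` for other classes. -/
def jexp : Fin 16 → ℕ := ![0, 1, 0, 2, 0, 0, 4, 0, 3, 6, 0, 0, 0, 5, 0, 5]

/-- Powers on codes, from the left. -/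
def cpowL (x : ℕ) : ℕ → ℕ
  | 0 => 0
  | n + 1 => cmul (cpowL x n) x

theorem jexp_check : ∀ n : Fin 1920, jexp (Fin.ofNat 16 (cty n.val)) ≠ 0 →
    cpowL n.val (jexp (Fin.ofNat 16 (cty n.val))) = 16 := by
  decide +kernel

theorem al_zero : ∀ (j : Fin 7) (i : Fin 16), jexp i = 0 → al j i = 0 := by decide +kernel

theorem central_check : ∀ n : Fin 1920, n.val = 0 ∨ n.val = 16 ∨
    ∃ j : Fin 9, cmul n.val (![1, 2, 4, 8, 16, 512, 416, 960, 480] j) ≠
      cmul (![1, 2, 4, 8, 16, 512, 416, 960, 480] j) n.val := by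
  decide +kernel

theorem sq_check : ∀ n : Fin 1920, cmul n.val n.val = 16 → cty n.val = 3 := by decide +kernel

theorem cube_check : ∀ n : Fin 1920, cmul (cmul n.val n.val) n.val = 16 → n.val ≠ 16 →
    cty n.val = 8 := by
  decide +kernel

theorem fuse_check : ∀ n : Fin 1920,
    ((cty n.val = 2 ∨ cty n.val = 4) → cmul n.val n.val = 0 ∧ n.val ≠ 0) ∧
    (cty n.val = 5 → cmul (cmul n.val n.val) (cmul n.val n.val) = 0 ∧ cmul n.val n.val ≠ 0) ∧
    ((cty n.val = 10 ∨ cty n.val = 11) →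
      cmul (cmul (cmul n.val n.val) n.val) (cmul (cmul n.val n.val) n.val) = 0 ∧
      cmul (cmul n.val n.val) n.val ≠ 0 ∧ cmul n.val n.val ≠ 0) := by
  decide +kernel

/-- Test for an involution. -/
def isInv (n : ℕ) : Bool := (cmul n n).beq 0 && !(n.beq 0)

theorem pairs_check : ∀ i : Fin 16, jexp i ≠ 0 →
    ((List.range 1920).filter fun p => isInv p && isInv (cmul p (crep i.val))).length =
      npairs i := by
  decide +kernel

/-- A Sylow `2`-subgroup: the elements whose permutation fixes the last point and squares to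
`1`. -/
def inTwo (n : ℕ) : Bool :=
  (slot tPerm 3 (5 * (n / 32) + 4)).beq 4 && (slot tAMul 6 (60 * (n / 32) + n / 32)).beq 0

theorem two_all : (((List.range 1920).filter inTwo).all fun x =>
    ((List.range 1920).filter inTwo).all fun y => inTwo (cmul x y)) = true := by
  decide +kernel

theorem two_center : (((List.range 1920).filter inTwo).all fun x =>
    x.beq 0 || x.beq 16 || [1, 2, 4, 8, 16, 416, 960].any fun y =>
      inTwo y && !(cmul x y).beq (cmul y x)) = true := by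
  decide +kernel

theorem two_check : ∀ n : Fin 1920, inTwo n.val = true →
    (∀ m : Fin 1920, inTwo m.val = true → inTwo (cmul n.val m.val) = true) ∧
    (n.val = 0 ∨ n.val = 16 ∨
      ∃ j : Fin 7, inTwo (![1, 2, 4, 8, 16, 416, 960] j) = true ∧
        cmul n.val (![1, 2, 4, 8, 16, 416, 960] j) ≠
          cmul (![1, 2, 4, 8, 16, 416, 960] j) n.val) := by
  intro n hn
  have hmem : ∀ m : Fin 1920, inTwo m.val = true → m.val ∈ (List.range 1920).filter inTwo :=
    fun m hm => List.mem_filter.2 ⟨List.mem_range.2 m.isLt, hm⟩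
  refine ⟨fun m hm =>
    List.all_eq_true.1 (List.all_eq_true.1 two_all _ (hmem n hn)) _ (hmem m hm), ?_⟩
  have h := List.all_eq_true.1 two_center _ (hmem n hn)
  rw [Bool.or_eq_true, Bool.or_eq_true, List.any_eq_true] at h
  rcases h with (h | h) | ⟨y, hy, hc⟩
  · exact Or.inl (Nat.eq_of_beq_eq_true h)
  · exact Or.inr (Or.inl (Nat.eq_of_beq_eq_true h))
  · rw [Bool.and_eq_true, Bool.not_eq_true'] at hc
    obtain ⟨i, hi, rfl⟩ := List.getElem_of_mem hy
    simp only [List.length_cons, List.length_nil] at hi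
    refine Or.inr (Or.inr ⟨⟨i, hi⟩, ?_⟩)
    have e : ![1, 2, 4, 8, 16, 416, 960] ⟨i, hi⟩ = [1, 2, 4, 8, 16, 416, 960][i] := by
      interval_cases i <;> rfl
    refine ⟨e ▸ hc.1, fun h => ?_⟩
    rw [e] at h
    rw [h] at hc
    simp at hc

theorem two_card : ((List.range 1920).filter inTwo).length = 128 := by decide +kernel

/-- The Gram matrix. -/
def gram : Fin 7 → Fin 7 → ℤ :=
  ![![3, 1, 0, -1, 0, 1, 1], ![1, 3, 0, -1, 0, 1, 1], ![0, 0, 3, 1, 1, -1, 0],
    ![-1, -1, 1, 4, -1, 0, 1], ![0, 0, 1, -1, 4, 0, -1], ![1, 1, -1, 0, 0, 5, 0],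
    ![1, 1, 0, 1, -1, 0, 6]]

/-- Coefficients in the principal character. -/
def vone : Fin 7 → ℤ := ![0, 0, 0, -1, 0, 0, -1]

/-- Coefficients of the combination supported at the central involution. -/
def tCoef : Fin 7 → ℤ := ![2, 2, 11, 9, -15, -5, -10]

/-- Sums against the numbers of pairs of involutions. -/
def wPairs : Fin 7 → ℤ := ![-4320, -4320, -320, -15200, -9120, -8640, -22720]

theorem gram_check : ∀ i j : Fin 7, Zu.wsum (fun k => al i k * al j k) = ⟨1920 * gram i j, 0⟩ := by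
  decide +kernel

theorem one_check : ∀ i : Fin 7, Zu.wsum (al i) = ⟨1920 * vone i, 0⟩ := by decide +kernel

theorem delta_check : ∀ k : Fin 16,
    (⟨2, 0⟩ : Zu) * al 0 k + ⟨2, 0⟩ * al 1 k + ⟨11, 0⟩ * al 2 k + ⟨9, 0⟩ * al 3 k +
      ⟨-15, 0⟩ * al 4 k + ⟨-5, 0⟩ * al 5 k + ⟨-10, 0⟩ * al 6 k =
      if k = 1 then ⟨1920, 0⟩ else 0 := by
  decide +kernel

theorem wPairs_check : ∀ i : Fin 7,
    Zu.wsum (fun k => al i k * ⟨(npairs k : ℤ), 0⟩) = ⟨wPairs i, 0⟩ := by
  decide +kernel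

/-- The class to which a class fuses. -/
def fz : Fin 16 → Fin 16 := ![0, 1, 1, 3, 1, 3, 6, 7, 8, 9, 8, 8, 12, 13, 14, 15]

theorem phi_weight : ∀ k : Fin 16, (⟨(csize k : ℤ), 0⟩ : Zu) * (⟨128 * phi k, 0⟩ +
    ((⟨18, 0⟩ : Zu) * al 0 k + ⟨18, 0⟩ * al 1 k + ⟨-5, 0⟩ * al 2 k + ⟨-7, 0⟩ * al 3 k +
      ⟨-63, 0⟩ * al 4 k + ⟨43, 0⟩ * al 5 k + ⟨6, 0⟩ * al 6 k)) =
    ⟨![1920, 6400, 8960, 15360, -15360, -15360, 0, 0, 81920, 0, -40960, -40960, 0, 0, 0, 0] k,
      0⟩ := by
  decide +kernel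

end CfsgLib.JankoThree
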