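import Cfsg.Agent.Lib.JankoThree.Group
import Cfsg.Agent.Lib.JankoOrder.Model

/-!
The sixteen classes of `2^(1+4) : A₅`, sums of class functions, and a small ring of values.
-/

set_option autoImplicit false
set_option maxRecDepth 100000
set_option Elab.async false

namespace CfsgLib.JankoThree

/-- The class of an element. -/
def ty (x : K) : Fin 16 := Fin.ofNat 16 (cty (code x))

/-- The representative of a class. -/
def rep (i : Fin 16) : K := ofCode (crep i.val)

theorem wit_check : ∀ n : Fin 1920,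
    cmul (cmul (slot tWit 11 n.val) (crep (cty n.val))) (cinv (slot tWit 11 n.val)) = n.val ∧
      slot tWit 11 n.val < 1920 ∧ crep (cty n.val) < 1920 := by
  decide +kernel

theorem ty_val (x : K) : (ty x).val = cty (code x) := by
  simp only [ty, Fin.val_ofNat]
  exact Nat.mod_eq_of_lt (slot_lt _ 4 _)

/-- Every element is conjugate to the representative of its class. -/
theorem exists_conj_rep (x : K) : ∃ h : K, h * rep (ty x) * h⁻¹ = x := by
  obtain ⟨h1, h2, h3⟩ := wit_check ⟨code x, code_lt x⟩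
  refine ⟨ofCode (slot tWit 11 (code x)), code_inj ?_⟩
  rw [code_mul, code_mul, code_inv, code_ofCode h2, rep, ty_val, code_ofCode h3]
  exact h1

theorem cty_conj : ∀ (j : Fin 9) (n : Fin 1920),
    cty (cmul (cmul (![1, 2, 4, 8, 16, 512, 416, 960, 480] j) n.val)
      (cinv (![1, 2, 4, 8, 16, 512, 416, 960, 480] j))) = cty n.val := by
  decide +kernel

/-- Powers on codes. -/
def cpow (x : ℕ) : ℕ → ℕ
  | 0 => 0
  | n + 1 => cmul (cpow x n) x

theorem word_perm : ∀ a : Fin 60, ∃ i : Fin 5, ∃ j : Fin 2, ∃ k : Fin 2, ∃ l : Fin 3,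
    32 * a.val = cmul (cmul (cmul (cpow 512 i.val) (cpow 416 j.val)) (cpow 960 k.val))
      (cpow 480 l.val) := by
  decide +kernel

theorem word_ext : ∀ e : Fin 32,
    cmul (cmul (cmul (cmul (cpow 1 ((e.val / 1) % 2)) (cpow 2 ((e.val / 2) % 2)))
      (cpow 4 ((e.val / 4) % 2))) (cpow 8 ((e.val / 8) % 2))) (cpow 16 ((e.val / 16) % 2)) =
      e.val := by
  decide +kernel

theorem split_code : ∀ n : Fin 1920, cmul (n.val % 32) (32 * (n.val / 32)) = n.val := by
  decide +kernel

theorem ty_conj (g x : K) : ty (g * x * g⁻¹) = ty x := by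
  let S : Subgroup K :=
    { carrier := {g | ∀ x, ty (g * x * g⁻¹) = ty x}
      one_mem' := fun x => by simp
      mul_mem' := fun {a b} ha hb x => by
        rw [show a * b * x * (a * b)⁻¹ = a * (b * x * b⁻¹) * a⁻¹ by group, ha, hb]
      inv_mem' := fun {a} ha x => by
        conv_rhs => rw [show x = a * (a⁻¹ * x * a⁻¹⁻¹) * a⁻¹ by group, ha] }
  have hg : ∀ j : Fin 9, ofCode (![1, 2, 4, 8, 16, 512, 416, 960, 480] j) ∈ S := by
    intro j x
    have hj : ![1, 2, 4, 8, 16, 512, 416, 960, 480] j < 1920 := by fin_cases j <;> norm_num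
    apply Fin.ext
    rw [ty_val, ty_val, code_mul, code_mul, code_inv, code_ofCode hj]
    exact cty_conj j ⟨code x, code_lt x⟩
  have hpow : ∀ (c : ℕ), c < 1920 → ofCode c ∈ S → ∀ n, ∃ y ∈ S, code y = cpow c n := by
    intro c hc hcS n
    induction n with
    | zero => exact ⟨1, one_mem _, code_one⟩
    | succ n ih =>
      obtain ⟨y, hy, hyc⟩ := ih
      exact ⟨y * ofCode c, mul_mem hy hcS, by rw [code_mul, hyc, code_ofCode hc]; rfl⟩
  obtain ⟨i, j, k, l, hw⟩ := word_perm ⟨code g / 32, by have := code_lt g; omega⟩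
  obtain ⟨p1, h1, c1⟩ := hpow 512 (by norm_num) (hg 5) i.val
  obtain ⟨p2, h2, c2⟩ := hpow 416 (by norm_num) (hg 6) j.val
  obtain ⟨p3, h3, c3⟩ := hpow 960 (by norm_num) (hg 7) k.val
  obtain ⟨p4, h4, c4⟩ := hpow 480 (by norm_num) (hg 8) l.val
  have he := word_ext ⟨code g % 32, Nat.mod_lt _ (by norm_num)⟩
  obtain ⟨q0, g0, d0⟩ := hpow 1 (by norm_num) (hg 0) ((code g % 32 / 1) % 2)
  obtain ⟨q1, g1, d1⟩ := hpow 2 (by norm_num) (hg 1) ((code g % 32 / 2) % 2)
  obtain ⟨q2, g2, d2⟩ := hpow 4 (by norm_num) (hg 2) ((code g % 32 / 4) % 2)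
  obtain ⟨q3, g3, d3⟩ := hpow 8 (by norm_num) (hg 3) ((code g % 32 / 8) % 2)
  obtain ⟨q4, g4, d4⟩ := hpow 16 (by norm_num) (hg 4) ((code g % 32 / 16) % 2)
  have hmem : g ∈ S := by
    have hg' : g = q0 * q1 * q2 * q3 * q4 * (p1 * p2 * p3 * p4) := code_inj (by
      simp only [code_mul, c1, c2, c3, c4, d0, d1, d2, d3, d4]
      rw [← hw, he]
      exact (split_code ⟨code g, code_lt g⟩).symm)
    rw [hg']
    exact mul_mem (mul_mem (mul_mem (mul_mem (mul_mem g0 g1) g2) g3) g4)
      (mul_mem (mul_mem (mul_mem h1 h2) h3) h4)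
  exact hmem x

/-- The class sizes. -/
def csize : Fin 16 → ℕ :=
  ![1, 1, 10, 20, 120, 120, 240, 80, 80, 160, 160, 160, 192, 192, 192, 192]

theorem card_class : ∀ i : Fin 16,
    ((List.range 1920).filter fun n => cty n == i.val).length = csize i := by
  decide +kernel

theorem card_filter_ty (i : Fin 16) :
    (Finset.univ.filter fun x : K => ty x = i).card = csize i := by
  rw [← card_class i]
  have h : ((List.range 1920).filter fun n => cty n == i.val).length =
      ((Finset.range 1920).filter fun n => cty n = i.val).card := by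
    rw [← List.toFinset_card_of_nodup ((List.nodup_range).filter _)]
    congr 1
    ext n
    simp
  rw [h]
  refine Finset.card_bij (fun x _ => code x) ?_ ?_ ?_
  · intro x hx
    simp only [Finset.mem_filter, Finset.mem_univ, true_and] at hx
    simp [code_lt x, ← hx, ty_val]
  · exact fun x _ y _ h => code_inj h
  · intro n hn
    simp only [Finset.mem_filter, Finset.mem_range] at hn
    refine ⟨ofCode n, ?_, code_ofCode hn.1⟩
    simp [Fin.ext_iff, ty_val, code_ofCode hn.1, hn.2]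

theorem sum_ty (g : Fin 16 → ℂ) : ∑ x : K, g (ty x) = ∑ i, (csize i : ℂ) * g i := by
  rw [← Finset.sum_fiberwise Finset.univ ty]
  refine Finset.sum_congr rfl fun i _ => ?_
  rw [Finset.sum_congr rfl (g := fun _ => g i) fun x hx => by rw [(Finset.mem_filter.1 hx).2],
    Finset.sum_const, card_filter_ty, nsmul_eq_mul]

/-- Numbers `a + b (ζ + ζ⁻¹)` with `ζ` a primitive fifth root of unity. -/
@[ext] structure Zu where
  a : ℤ
  b : ℤ
deriving DecidableEq

namespace Zu

instance : Zero Zu := ⟨⟨0, 0⟩⟩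
instance : One Zu := ⟨⟨1, 0⟩⟩
instance : Add Zu := ⟨fun x y => ⟨x.a + y.a, x.b + y.b⟩⟩
instance : Neg Zu := ⟨fun x => ⟨-x.a, -x.b⟩⟩
instance : Sub Zu := ⟨fun x y => ⟨x.a - y.a, x.b - y.b⟩⟩
instance : Mul Zu := ⟨fun x y => ⟨x.a * y.a + x.b * y.b, x.a * y.b + x.b * y.a - x.b * y.b⟩⟩

/-- The complex number. -/
noncomputable def toC (x : Zu) : ℂ := (x.a : ℂ) + (x.b : ℂ) * JankoOrder.uu

theorem toC_zero : toC 0 = 0 := by simp [toC, show (0 : Zu) = ⟨0, 0⟩ from rfl]

theorem toC_one : toC 1 = 1 := by simp [toC, show (1 : Zu) = ⟨1, 0⟩ from rfl]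

theorem toC_int (n : ℤ) : toC ⟨n, 0⟩ = (n : ℂ) := by simp [toC]

theorem toC_add (x y : Zu) : toC (x + y) = toC x + toC y := by
  simp [toC, show x + y = ⟨x.a + y.a, x.b + y.b⟩ from rfl]; ring

theorem toC_sub (x y : Zu) : toC (x - y) = toC x - toC y := by
  simp [toC, show x - y = ⟨x.a - y.a, x.b - y.b⟩ from rfl]; ring

theorem toC_neg (x : Zu) : toC (-x) = -toC x := by
  simp [toC, show -x = ⟨-x.a, -x.b⟩ from rfl]; ring

theorem toC_mul (x y : Zu) : toC (x * y) = toC x * toC y := by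
  rw [show x * y = ⟨x.a * y.a + x.b * y.b, x.a * y.b + x.b * y.a - x.b * y.b⟩ from rfl]
  simp only [toC]
  push_cast
  linear_combination -((x.b : ℂ) * y.b) * JankoOrder.uu_sq

theorem conj_toC (x : Zu) : (starRingEnd ℂ) (toC x) = toC x := by
  simp [toC, JankoOrder.conj_uu]

/-- The weighted sum over the classes. -/
def wsum (f : Fin 16 → Zu) : Zu :=
  (List.finRange 16).foldr (fun i s => ⟨(csize i : ℤ), 0⟩ * f i + s) 0

theorem toC_wsum (f : Fin 16 → Zu) : toC (wsum f) = ∑ i, (csize i : ℂ) * toC (f i) := by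
  have h : ∀ l : List (Fin 16),
      toC (l.foldr (fun i s => ⟨(csize i : ℤ), 0⟩ * f i + s) 0) =
        (l.map fun i => (csize i : ℂ) * toC (f i)).sum := by
    intro l
    induction l with
    | nil => simp [toC_zero]
    | cons i l ih =>
      rw [List.foldr_cons, toC_add, toC_mul, toC_int, List.map_cons, List.sum_cons, ih]
      norm_num
  rw [wsum, h, ← Fin.sum_univ_def]

theorem sum_toC (f : Fin 16 → Zu) : ∑ x : K, toC (f (ty x)) = toC (wsum f) := by
  rw [sum_ty fun i => toC (f i), toC_wsum]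

end Zu

end CfsgLib.JankoThree
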