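import Cfsg.Agent.Lib.JankoThree.Tables

/-!
The split group `2^(1+4) : A₅` with central involution `kz`, given by tables.
-/

set_option autoImplicit false
set_option maxRecDepth 100000
set_option linter.style.haveILetI false
set_option Elab.async false

namespace CfsgLib.JankoThree

/-- The extraspecial group of order `32`. -/
@[ext] structure E where
  val : Fin 32
deriving DecidableEq

namespace E

/-- Enumeration. -/
def equivFin : E ≃ Fin 32 := ⟨E.val, E.mk, fun _ => rfl, fun _ => rfl⟩

instance : Fintype E := Fintype.ofEquiv _ equivFin.symm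
instance : One E := ⟨⟨0⟩⟩
instance : Mul E := ⟨fun x y => ⟨Fin.ofNat 32 (slot tEMul 5 (32 * x.val.val + y.val.val))⟩⟩
instance : Inv E := ⟨fun x => ⟨Fin.ofNat 32 (slot tEInv 5 x.val.val)⟩⟩

instance : Group E :=
  Group.ofLeftAxioms
    (by
      have : ∀ x y z : Fin 32, (⟨x⟩ : E) * ⟨y⟩ * ⟨z⟩ = ⟨x⟩ * (⟨y⟩ * ⟨z⟩) := by decide +kernel
      exact fun x y z => this x.val y.val z.val)
    (by
      have : ∀ x : Fin 32, (1 : E) * ⟨x⟩ = ⟨x⟩ := by decide +kernel
      exact fun x => this x.val)
    (by
      have : ∀ x : Fin 32, (⟨x⟩ : E)⁻¹ * ⟨x⟩ = 1 := by decide +kernel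
      exact fun x => this x.val)

end E

/-- The alternating group of degree five, given by a table. -/
@[ext] structure A where
  val : Fin 60
deriving DecidableEq

namespace A

/-- Enumeration. -/
def equivFin : A ≃ Fin 60 := ⟨A.val, A.mk, fun _ => rfl, fun _ => rfl⟩

instance : Fintype A := Fintype.ofEquiv _ equivFin.symm
instance : One A := ⟨⟨0⟩⟩
instance : Mul A := ⟨fun x y => ⟨Fin.ofNat 60 (slot tAMul 6 (60 * x.val.val + y.val.val))⟩⟩
instance : Inv A := ⟨fun x => ⟨Fin.ofNat 60 (slot tAInv 6 x.val.val)⟩⟩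

/-- The image of a point. -/
def pt (x : A) (i : Fin 5) : Fin 5 := Fin.ofNat 5 (slot tPerm 3 (5 * x.val.val + i.val))

theorem pt_mul : ∀ (x y : Fin 60) (i : Fin 5), pt (⟨x⟩ * ⟨y⟩) i = pt ⟨x⟩ (pt ⟨y⟩ i) := by
  decide +kernel

theorem pt_inj : ∀ x y : Fin 60, (∀ i : Fin 5, pt ⟨x⟩ i = pt ⟨y⟩ i) → x = y := by
  decide +kernel

theorem ext_pt {x y : A} (h : ∀ i, pt x i = pt y i) : x = y := by
  ext1
  exact pt_inj x.val y.val h

instance : Group A :=
  Group.ofLeftAxioms
    (fun x y z => ext_pt fun i => by
      rw [show pt (x * y * z) i = pt (x * y) (pt z i) from pt_mul (x * y).val z.val i,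
        show pt (x * y) (pt z i) = pt x (pt y (pt z i)) from pt_mul x.val y.val (pt z i),
        show pt (x * (y * z)) i = pt x (pt (y * z) i) from pt_mul x.val (y * z).val i,
        show pt (y * z) i = pt y (pt z i) from pt_mul y.val z.val i])
    (by
      have : ∀ x : Fin 60, (1 : A) * ⟨x⟩ = ⟨x⟩ := by decide +kernel
      exact fun x => this x.val)
    (by
      have : ∀ x : Fin 60, (⟨x⟩ : A)⁻¹ * ⟨x⟩ = 1 := by decide +kernel
      exact fun x => this x.val)

theorem pt_one : ∀ i : Fin 5, pt 1 i = i := by decide +kernel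

theorem pt_mul' (x y : A) (i : Fin 5) : pt (x * y) i = pt x (pt y i) := pt_mul x.val y.val i

/-- The permutation. -/
def perm : A →* Equiv.Perm (Fin 5) where
  toFun x :=
    { toFun := pt x
      invFun := pt x⁻¹
      left_inv := fun i => by rw [← pt_mul', inv_mul_cancel, pt_one]
      right_inv := fun i => by rw [← pt_mul', mul_inv_cancel, pt_one] }
  map_one' := Equiv.ext pt_one
  map_mul' x y := Equiv.ext fun i => pt_mul' x y i

theorem perm_injective : Function.Injective perm := fun _ _ h =>
  ext_pt fun i => congrArg (fun p : Equiv.Perm (Fin 5) => p i) h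

theorem sign_perm : ∀ x : Fin 60, Equiv.Perm.sign (perm ⟨x⟩) = 1 := by decide +kernel

theorem perm_mem (x : Fin 60) : perm ⟨x⟩ ∈ alternatingGroup (Fin 5) :=
  Equiv.Perm.mem_alternatingGroup.2 (sign_perm x)

/-- The isomorphism with the alternating group. -/
noncomputable def toAlt : A ≃* alternatingGroup (Fin 5) :=
  MulEquiv.ofBijective (perm.codRestrict _ fun x => perm_mem x.val) <| by
    rw [Fintype.bijective_iff_injective_and_card]
    refine ⟨fun a b h => perm_injective (congrArg Subtype.val h), ?_⟩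
    rw [Fintype.card_congr equivFin, Fintype.card_fin]
    decide +kernel

theorem toAlt_apply (x : A) (i : Fin 5) : (toAlt x : Equiv.Perm (Fin 5)) i = pt x i := rfl

end A

/-- The action of a permutation on the extraspecial group. -/
def act (a : A) (x : E) : E := ⟨Fin.ofNat 32 (slot tAct 5 (32 * a.val.val + x.val.val))⟩

theorem act_mul : ∀ (a : Fin 60) (x y : Fin 32),
    act ⟨a⟩ (⟨x⟩ * ⟨y⟩) = act ⟨a⟩ ⟨x⟩ * act ⟨a⟩ ⟨y⟩ := by
  decide +kernel

theorem act_act : ∀ (a b : Fin 60) (x : Fin 32),
    act (⟨a⟩ * ⟨b⟩) ⟨x⟩ = act ⟨a⟩ (act ⟨b⟩ ⟨x⟩) := by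
  decide +kernel

theorem act_one : ∀ x : Fin 32, act 1 ⟨x⟩ = ⟨x⟩ := by decide +kernel

/-- The action as automorphisms. -/
def actHom : A →* MulAut E where
  toFun a :=
    { toFun := act a
      invFun := act a⁻¹
      left_inv := fun x => by
        rw [← show act (a⁻¹ * a) x = act a⁻¹ (act a x) from act_act a⁻¹.val a.val x.val,
          inv_mul_cancel]
        exact act_one x.val
      right_inv := fun x => by
        rw [← show act (a * a⁻¹) x = act a (act a⁻¹ x) from act_act a.val a⁻¹.val x.val,
          mul_inv_cancel]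
        exact act_one x.val
      map_mul' := fun x y => act_mul a.val x.val y.val }
  map_one' := MulEquiv.ext fun x => act_one x.val
  map_mul' a b := MulEquiv.ext fun x => act_act a.val b.val x.val

/-- The group `2^(1+4) : A₅`. -/
abbrev K := E ⋊[actHom] A

/-- The central involution. -/
def kz : K := ⟨⟨16⟩, 1⟩

/-- The element with a given code. -/
def ofCode (n : ℕ) : K := ⟨⟨Fin.ofNat 32 (n % 32)⟩, ⟨Fin.ofNat 60 (n / 32)⟩⟩

/-- The code of an element. -/
def code (x : K) : ℕ := 32 * x.right.val.val + x.left.val.val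

theorem code_lt (x : K) : code x < 1920 := by
  have h1 := x.right.val.isLt
  have h2 := x.left.val.isLt
  unfold code; omega

theorem ofCode_code (x : K) : ofCode (code x) = x := by
  have h1 := x.right.val.isLt
  have h2 := x.left.val.isLt
  ext <;> simp [ofCode, code] <;> omega

theorem code_ofCode {n : ℕ} (h : n < 1920) : code (ofCode n) = n := by
  simp [ofCode, code]; omega

theorem slot_lt (T w i : ℕ) : slot T w i < 2 ^ w := Nat.mod_lt _ (Nat.two_pow_pos w)

theorem tAMul_lt : ∀ i : Fin 3600, slot tAMul 6 i < 60 := by decide +kernel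

theorem code_mul (x y : K) : code (x * y) = cmul (code x) (code y) := by
  have h1 := x.right.val.isLt
  have h2 := x.left.val.isLt
  have h3 := y.right.val.isLt
  have h4 := y.left.val.isLt
  have e1 : code x / 32 = x.right.val.val := by unfold code; omega
  have e2 : code x % 32 = x.left.val.val := by unfold code; omega
  have e3 : code y / 32 = y.right.val.val := by unfold code; omega
  have e4 : code y % 32 = y.left.val.val := by unfold code; omega
  have a1 := tAMul_lt ⟨60 * x.right.val.val + y.right.val.val, by omega⟩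
  have a2 : ∀ i, slot tEMul 5 i < 32 := slot_lt tEMul 5
  have a3 : ∀ i, slot tAct 5 i < 32 := slot_lt tAct 5
  unfold cmul
  rw [e1, e2, e3, e4]
  show 32 * ((x.right * y.right).val.val) + (x.left * act x.right y.left).val.val = _
  show 32 * (slot tAMul 6 (60 * x.right.val.val + y.right.val.val) % 60) +
    (slot tEMul 5 (32 * x.left.val.val +
      (slot tAct 5 (32 * x.right.val.val + y.left.val.val) % 32)) % 32) = _
  simp only [Nat.mod_eq_of_lt a1, Nat.mod_eq_of_lt (a3 _), Nat.mod_eq_of_lt (a2 _)] at *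
  all_goals simp only [Nat.mod_eq_of_lt (a3 _), Nat.mod_eq_of_lt (a2 _)]

theorem code_inj {x y : K} (h : code x = code y) : x = y := by
  rw [← ofCode_code x, h, ofCode_code]

theorem code_one : code 1 = 0 := rfl

theorem code_inv_check : ∀ n : Fin 1920, cmul (cinv n) n = 0 ∧ cinv n < 1920 := by decide +kernel

theorem code_inv (x : K) : code x⁻¹ = cinv (code x) := by
  obtain ⟨h, hlt⟩ := code_inv_check ⟨code x, code_lt x⟩
  have : ofCode (cinv (code x)) * x = 1 := code_inj (by
    rw [code_mul, code_ofCode hlt, code_one]; exact h)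
  rw [← eq_inv_of_mul_eq_one_left this, code_ofCode hlt]

/-- The bijection with the codes. -/
def codeEquiv : K ≃ Fin 1920 where
  toFun x := ⟨code x, code_lt x⟩
  invFun n := ofCode n
  left_inv := ofCode_code
  right_inv n := Fin.ext (code_ofCode n.isLt)

instance : Fintype K := Fintype.ofEquiv _ codeEquiv.symm

theorem card_K : Nat.card K = 1920 := by
  rw [Nat.card_congr codeEquiv, Nat.card_fin]

end CfsgLib.JankoThree
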