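import Cfsg.Agent.Lib.JankoThree.Setup
import Cfsg.Agent.Lib.Frobenius.TI
import Cfsg.Agent.Lib.Correspondences.CharKer
import Cfsg.Agent.Lib.CharTheory.Values

/-!
The numerical data carried by the irreducible characters of the group.
-/

set_option autoImplicit false
set_option maxRecDepth 10000
set_option linter.unusedSectionVars false
set_option linter.style.haveILetI false

open Cfsg
open scoped ComplexConjugate

namespace CfsgLib.JankoThree

universe u

/-- The numerical data extracted from the group. -/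
structure Numeric (N : ℕ) (ι : Type u) [Fintype ι] where
  one : ι
  f : ι → ℕ
  v : Fin 7 → ι → ℤ
  T : ι → ℤ
  T_eq : ∀ χ, T χ = ∑ i, tCoef i * v i χ
  gram_eq : ∀ i j, ∑ χ, v i χ * v j χ = gram i j
  v_one : ∀ i, v i one = vone i
  f_one : f one = 1
  f_dvd : ∀ χ, f χ ∣ N
  f_sq : ∀ χ, f χ ^ 2 ≤ N
  f_res : ∀ χ, (128 : ℤ) ∣ (f χ : ℤ) - ∑ i, resCoef i * v i χ
  f_gt : ∀ χ, χ ≠ one → |T χ| < (f χ : ℤ)
  deg : ∀ i, ∑ χ, v i χ * (f χ : ℤ) = 0
  eqn : ∀ i, (N : ℚ) * ∑ χ, (v i χ : ℚ) * (T χ : ℚ) ^ 2 / (f χ : ℚ) = 1920 * (wPairs i : ℚ)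
  dvd_N : 1920 ∣ N
  not_dvd_N : ¬ 256 ∣ N

namespace Cen

variable {G : Type u} [Group G] (d : Cen G)

/-- The centraliser of `t`. -/
abbrev C : Subgroup G := Subgroup.centralizer ({d.t} : Set G)

/-- The centraliser is the model. -/
noncomputable def eqv : d.C ≃* K :=
  ((MonoidHom.ofInjective d.inj).trans (MulEquiv.subgroupCongr d.range)).symm

theorem phi_eqv (c : d.C) : d.φ (d.eqv c) = c := by
  obtain ⟨p, rfl⟩ :=
    ((MonoidHom.ofInjective d.inj).trans (MulEquiv.subgroupCongr d.range)).surjective c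
  rw [eqv, MulEquiv.symm_apply_apply]
  rfl

/-- The seven functions on the centraliser. -/
noncomputable def alpha (i : Fin 7) (c : d.C) : ℂ := alphaK i (d.eqv c)

theorem isGeneralizedCharacter_alpha (i : Fin 7) : IsGeneralizedCharacter d.C (d.alpha i) :=
  CfsgLib.Coherence.isGeneralizedCharacter_comp (isGeneralizedCharacter_alphaK i)
    d.eqv.toMonoidHom

theorem conj_alpha (i : Fin 7) (c : d.C) : conj (d.alpha i c) = d.alpha i c :=
  Zu.conj_toC _

variable [Finite G]

theorem alphaK_eq_zero {p : K} (i : Fin 7) (h : d.φ p ∉ d.special) : alphaK i p = 0 := by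
  by_cases hj : jexp (ty p) = 0
  · rw [alphaK, al_zero i _ hj, Zu.toC_zero]
  · exact absurd ⟨jexp (ty p), by rw [← map_pow, pow_jexp hj, d.phi_kz]⟩ h

theorem alpha_eq_zero (i : Fin 7) (c : d.C) (hc : (c : G) ∉ d.special) : d.alpha i c = 0 :=
  d.alphaK_eq_zero i (by rwa [d.phi_eqv])

theorem alpha_one (i : Fin 7) : d.alpha i 1 = 0 := by
  refine d.alpha_eq_zero i 1 fun ⟨j, hj⟩ => d.t_ne_one ?_
  rw [← hj, OneMemClass.coe_one, one_pow]

variable [Fintype G]

theorem sum_C (F : d.C → ℂ) [Fintype d.C] : ∑ c : d.C, F c = ∑ p : K, F (d.eqv.symm p) :=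
  Fintype.sum_equiv d.eqv.toEquiv _ _ fun c => by simp

theorem coe_symm (p : K) : ((d.eqv.symm p : d.C) : G) = d.φ p := by
  rw [← d.phi_eqv (d.eqv.symm p), MulEquiv.apply_symm_apply]

open scoped Classical in
/-- The number of ways of writing an element as a product of two involutions. -/
noncomputable def cnt (u : G) : ℕ :=
  (Finset.univ.filter fun x => IsConj d.t x ∧ IsConj d.t (x * u)).card

theorem cnt_conj (u g : G) : d.cnt (g * u * g⁻¹) = d.cnt u := by
  classical
  refine Finset.card_equiv (MulAut.conj g⁻¹).toEquiv fun x => ?_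
  simp only [Finset.mem_filter, Finset.mem_univ, true_and, MulEquiv.toEquiv_eq_coe,
    MulEquiv.coe_toEquiv, MulAut.conj_apply, inv_inv]
  have e1 : ∀ y : G, IsConj d.t y ↔ IsConj d.t (g⁻¹ * y * g) := fun y =>
    ⟨fun h => h.trans (isConj_iff.2 ⟨g⁻¹, by rw [inv_inv]⟩),
      fun h => h.trans (isConj_iff.2 ⟨g, by group⟩)⟩
  rw [e1 x, e1 (x * (g * u * g⁻¹)),
    show g⁻¹ * (x * (g * u * g⁻¹)) * g = g⁻¹ * x * g * u by group]

theorem cnt_eq {q : K} (hq : jexp (ty q) ≠ 0) : d.cnt (d.φ q) = npairs (ty q) := by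
  classical
  obtain ⟨h, hh⟩ := exists_conj_rep q
  rw [← hh, map_mul, map_mul, map_inv, d.cnt_conj, hh]
  set i := ty q with hi
  rw [← pairs_check i hq, ← List.toFinset_card_of_nodup ((List.nodup_range).filter _)]
  have hjt : (d.φ (rep i)) ^ jexp i = d.t := by
    have hty : ty (rep i) = i := by
      rw [← ty_conj h (rep i), hh]
    have he := pow_jexp (p := rep i) (by rwa [hty])
    rw [hty] at he
    rw [← map_pow, he, d.phi_kz]
  have hmem : ∀ x : G, IsConj d.t x → IsConj d.t (x * d.φ (rep i)) → ∃ p, d.φ p = x := by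
    intro x hx hxy
    rw [d.isConj_t_iff] at hx hxy
    obtain ⟨hx1, -⟩ := hx
    obtain ⟨hx3, -⟩ := hxy
    have hxi : x⁻¹ = x := inv_eq_of_mul_eq_one_right hx1
    have hxu : x * d.φ (rep i) * x⁻¹ = (d.φ (rep i))⁻¹ := by
      rw [eq_inv_iff_mul_eq_one, hxi]
      simpa [mul_assoc] using hx3
    have hxt : x * d.t * x⁻¹ = d.t := by
      conv_lhs => rw [← hjt, ← conj_pow, hxu, inv_pow, hjt, inv_eq_of_mul_eq_one_right d.t_sq]
    exact d.exists_phi (mul_inv_eq_iff_eq_mul.1 hxt)
  have hinv : ∀ p : K, IsConj d.t (d.φ p) ↔ isInv (code p) = true := by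
    intro p
    rw [d.isConj_t_iff, ← map_mul, map_eq_one_iff d.φ d.inj, Ne, map_eq_one_iff d.φ d.inj]
    simp only [isInv, Bool.and_eq_true, Bool.not_eq_true', ← code_mul]
    constructor
    · rintro ⟨h1, h2⟩
      refine ⟨by rw [h1]; rfl, ?_⟩
      by_contra hb
      exact h2 (code_inj (Nat.eq_of_beq_eq_true (Bool.eq_true_of_not_eq_false hb)))
    · rintro ⟨h1, h2⟩
      refine ⟨code_inj (Nat.eq_of_beq_eq_true h1), fun e => ?_⟩
      rw [e] at h2
      simp [code_one] at h2
  unfold cnt
  refine (Finset.card_bij (fun p _ => d.φ (ofCode p)) ?_ ?_ ?_).symm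
  · intro n hn
    simp only [List.mem_toFinset, List.mem_filter, List.mem_range, Bool.and_eq_true] at hn
    refine Finset.mem_filter.2 ⟨Finset.mem_univ _, ?_⟩
    rw [← map_mul, hinv, hinv, code_mul, code_ofCode hn.1, rep, code_ofCode (crep_lt i)]
    exact hn.2
  · intro a ha b hb hab
    simp only [List.mem_toFinset, List.mem_filter, List.mem_range] at ha hb
    rw [← code_ofCode ha.1, d.inj hab, code_ofCode hb.1]
  · intro x hx
    simp only [Finset.mem_filter, Finset.mem_univ, true_and] at hx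
    obtain ⟨p, rfl⟩ := hmem x hx.1 hx.2
    refine ⟨code p, ?_, by rw [ofCode_code]⟩
    simp only [List.mem_toFinset, List.mem_filter, List.mem_range, Bool.and_eq_true]
    refine ⟨code_lt p, (hinv p).1 hx.1, ?_⟩
    have := (hinv (p * rep i)).1 (by rw [map_mul]; exact hx.2)
    rwa [code_mul, rep, code_ofCode (crep_lt i)] at this

/-- The value of a class function at fused classes. -/
theorem apply_fz (F : G → ℂ) (hF : ∀ g x : G, F (x * g * x⁻¹) = F g) (p : K) :
    F (d.φ p) = F (d.φ (rep (fz (ty p)))) := by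
  have hrep : ∀ q : K, F (d.φ q) = F (d.φ (rep (ty q))) := fun q => by
    obtain ⟨h, hh⟩ := exists_conj_rep q
    conv_lhs => rw [← hh, map_mul, map_mul, map_inv, hF]
  have hF' : ∀ x : G, IsConj d.t x → F x = F d.t := fun x hx => by
    obtain ⟨g, rfl⟩ := isConj_iff.1 hx
    rw [hF]
  have hkz : ty kz = 1 := by decide +kernel
  have c1 : d.φ (rep 1) = d.t := by
    rw [show rep 1 = kz from code_inj (by decide +kernel), d.phi_kz]
  obtain ⟨f2, f5, f10⟩ := fuse_check ⟨code p, code_lt p⟩
  have hcty : ∀ k : Fin 16, ty p = k → cty (code p) = k.val := fun k hk => by rw [← ty_val, hk]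
  have inv2 : ty p = 2 ∨ ty p = 4 → IsConj d.t (d.φ p) := by
    intro hk
    obtain ⟨h1, h2⟩ := f2 (hk.imp (hcty 2) (hcty 4))
    refine d.isConj_t ?_ fun e => h2 ?_
    · rw [← map_mul, code_inj (x := p * p) (y := 1) (by rw [code_mul, code_one]; exact h1),
        map_one]
    · exact (congrArg code (d.inj (e.trans (map_one _).symm))).trans code_one
  have sq5 : ty p = 5 → F (d.φ p) = F (d.φ (rep 3)) := by
    intro hk
    obtain ⟨h1, h2⟩ := f5 (hcty 5 hk)
    have hs : IsConj d.t (d.φ p * d.φ p) := by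
      rw [← map_mul]
      refine d.isConj_t ?_ fun e => h2 ?_
      · rw [← map_mul, code_inj (x := p * p * (p * p)) (y := 1)
          (by rw [code_mul, code_mul, code_one]; exact h1), map_one]
      · have := congrArg code (d.inj (e.trans (map_one _).symm))
        rwa [code_mul, code_one] at this
    obtain ⟨g, hg⟩ := isConj_iff.1 hs
    have hq : (g⁻¹ * d.φ p * g) * d.t = d.t * (g⁻¹ * d.φ p * g) := by
      rw [show d.t = g⁻¹ * (d.φ p * d.φ p) * g by rw [← hg]; group]
      group
    obtain ⟨q, hq'⟩ := d.exists_phi hq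
    have hqq : q * q = kz := d.inj (by
      rw [map_mul, hq', d.phi_kz, show d.t = g⁻¹ * (d.φ p * d.φ p) * g by rw [← hg]; group]
      group)
    have hty : ty q = 3 := Fin.ext (by
      rw [ty_val]; exact sq_check ⟨code q, code_lt q⟩ (by
        show cmul (code q) (code q) = 16
        rw [← code_mul, hqq]; rfl))
    rw [← hty, ← hrep q, hq', show g⁻¹ * d.φ p * g = g⁻¹ * d.φ p * g⁻¹⁻¹ by rw [inv_inv], hF]
  have cu : ty p = 10 ∨ ty p = 11 → F (d.φ p) = F (d.φ (rep 8)) := by
    intro hk
    obtain ⟨h1, h2, h3⟩ := f10 (hk.imp (hcty 10) (hcty 11))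
    have hs : IsConj d.t (d.φ (p * p * p)) := by
      refine d.isConj_t ?_ fun e => h2 ?_
      · rw [← map_mul, code_inj (x := p * p * p * (p * p * p)) (y := 1)
          (by simp only [code_mul, code_one]; exact h1), map_one]
      · have := congrArg code (d.inj (e.trans (map_one _).symm))
        simpa only [code_mul, code_one] using this
    obtain ⟨g, hg⟩ := isConj_iff.1 hs
    have e3 : d.t = g⁻¹ * (d.φ p * d.φ p * d.φ p) * g := by
      rw [← map_mul, ← map_mul, ← hg]; group
    have hq : (g⁻¹ * d.φ p * g) * d.t = d.t * (g⁻¹ * d.φ p * g) := by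
      rw [e3]; group
    obtain ⟨q, hq'⟩ := d.exists_phi hq
    have hqqq : q * q * q = kz := d.inj (by
      rw [map_mul, map_mul, hq', d.phi_kz, e3]; group)
    have hqk : q ≠ kz := by
      intro e
      rw [e, d.phi_kz] at hq'
      refine h3 ?_
      have e4 : p * p = 1 := d.inj (by
        rw [map_mul, map_one, show d.φ p = g * d.t * g⁻¹ by rw [hq']; group,
          show g * d.t * g⁻¹ * (g * d.t * g⁻¹) = g * (d.t * d.t) * g⁻¹ by group, d.t_sq]
        group)
      have := congrArg code e4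
      rwa [code_mul, code_one] at this
    have hty : ty q = 8 := Fin.ext (by
      rw [ty_val]; exact cube_check ⟨code q, code_lt q⟩ (by
        show cmul (cmul (code q) (code q)) (code q) = 16
        rw [← code_mul, ← code_mul, hqqq]; rfl) fun e => hqk (code_inj (e.trans rfl)))
    rw [← hty, ← hrep q, hq', show g⁻¹ * d.φ p * g = g⁻¹ * d.φ p * g⁻¹⁻¹ by rw [inv_inv], hF]
  have hall := hrep p
  generalize hk : ty p = k at hall inv2 sq5 cu
  fin_cases k
  case «2» => show F _ = F (d.φ (rep 1)); rw [c1]; exact hF' _ (inv2 (Or.inl rfl))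
  case «4» => show F _ = F (d.φ (rep 1)); rw [c1]; exact hF' _ (inv2 (Or.inr rfl))
  case «5» => exact sq5 rfl
  case «10» => exact cu (Or.inl rfl)
  case «11» => exact cu (Or.inr rfl)
  all_goals exact hall

variable [IsSimpleGroup G]

theorem abs_lt_degree (χ : IrrCharacter G) (hχ : χ ≠ CharTheory.trivIrr G) :
    ‖(χ : G → ℂ) d.t‖ < ((χ : G → ℂ) 1).re := by
  have hχc := CharTheory.IsIrrCharacter.isCharacter χ.2
  refine lt_of_le_of_ne (CharTheory.IsCharacter.norm_le hχc d.t) fun he => ?_
  obtain ⟨n, ρ, -, hρ⟩ := id χ.2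
  obtain ⟨ω, hω⟩ := (CharTheory.norm_character_eq_iff ρ d.t).1 (by
    rw [hρ, he, ← hρ, ρ.char_one]; simp)
  have hker : ∀ g : G, (χ : G → ℂ) (g * d.t * g⁻¹ * d.t) = (χ : G → ℂ) 1 := by
    intro g
    rw [← hρ, ρ.char_one]
    have hco : ρ g * ρ d.t = ρ d.t * ρ g := by
      rw [hω]
      exact LinearMap.ext fun w => by simp
    have e : ρ (g * d.t * g⁻¹ * d.t) = LinearMap.id := by
      rw [map_mul, map_mul, map_mul, hco, mul_assoc (ρ d.t) (ρ g), ← map_mul ρ g g⁻¹,
        mul_inv_cancel, map_one, mul_one, ← map_mul, d.t_sq, map_one]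
      rfl
    rw [Representation.character, e, LinearMap.trace_id]
  rcases (Correspondences.charKer_normal hχc).eq_bot_or_eq_top with hb | hb
  · have hc : ∀ g : G, g * d.t = d.t * g := by
      intro g
      have h1 : g * d.t * g⁻¹ * d.t = 1 :=
        Subgroup.mem_bot.1 (hb ▸ (Correspondences.mem_charKer hχc).2 (hker g))
      exact mul_inv_eq_iff_eq_mul.1 ((eq_inv_of_mul_eq_one_left h1).trans
        (inv_eq_of_mul_eq_one_right d.t_sq))
    haveI : (Subgroup.zpowers d.t).Normal := ⟨fun a ha g => by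
      obtain ⟨k, rfl⟩ := Subgroup.mem_zpowers_iff.1 ha
      rw [((Commute.zpow_right (show Commute g d.t from hc g) k)).eq, mul_inv_cancel_right]
      exact Subgroup.zpow_mem _ (Subgroup.mem_zpowers _) _⟩
    rcases (inferInstance : (Subgroup.zpowers d.t).Normal).eq_bot_or_eq_top with h | h
    · exact d.t_ne_one (Subgroup.zpowers_eq_bot.1 h)
    · have := d.dvd_card
      rw [← Subgroup.card_top, ← h, Nat.card_zpowers, d.ht] at this
      norm_num at this
  · have hall : ∀ g, (χ : G → ℂ) g = (χ : G → ℂ) 1 := fun g =>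
      (Correspondences.mem_charKer hχc).1 (hb ▸ Subgroup.mem_top g)
    have h0 := CharTheory.classInner_irrCharacter χ (CharTheory.trivIrr G)
    rw [if_neg hχ] at h0
    simp only [classInner, hall, CharTheory.trivIrr_apply, map_one, mul_one, Finset.sum_const,
      Finset.card_univ, nsmul_eq_mul, ← Nat.card_eq_fintype_card, ← mul_assoc] at h0
    rw [inv_mul_cancel₀ (Nat.cast_ne_zero.2 Nat.card_pos.ne'), one_mul] at h0
    exact CharTheory.apply_one_ne_zero_of_isIrr χ.2 h0

include d in
/-- The numerical data of the group. -/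
theorem exists_numeric :
    ∃ (ι : Type u) (_ : Fintype ι), Nonempty (Numeric (Nat.card G) ι) := by
  classical
  haveI := Fintype.ofFinite (IrrCharacter G)
  haveI : Fintype d.C := Fintype.ofFinite _
  have hcls : ∀ i, IsClassFunction d.C (d.alpha i) := fun i =>
    CharTheory.IsGeneralizedCharacter.isClassFunction (d.isGeneralizedCharacter_alpha i)
  have hind : ∀ i, ∃ m : IrrCharacter G → ℤ,
      indFun d.C (d.alpha i) = ∑ χ, (m χ : ℂ) • (χ : G → ℂ) := fun i =>
    CharTheory.isGeneralizedCharacter_iff_exists_sum.1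
      (Frobenius.isGeneralizedCharacter_indFun _ _ (d.isGeneralizedCharacter_alpha i))
  choose v hv using hind
  have hC : Nat.card d.C = 1920 := d.card_centralizer
  have hcoef : ∀ i (χ : IrrCharacter G), (v i χ : ℂ) =
      (1920 : ℂ)⁻¹ * ∑ p : K, alphaK i p * conj ((χ : G → ℂ) (d.φ p)) := by
    intro i χ
    have h1 := Frobenius.classInner_indFun d.C (d.alpha i) (χ : G → ℂ)
      (CharTheory.IsIrrCharacter.isClassFunction χ.2)
    rw [hv i, CharTheory.classInner_sum_irr] at h1
    rw [h1, classInner, hC, d.sum_C]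
    simp [alpha, d.coe_symm]
  have hgram : ∀ i j, ∑ χ, v i χ * v j χ = gram i j := by
    intro i j
    have h1 := Frobenius.classInner_indFun_indFun_of_ti d.C d.special
      (fun x hx s hs hsx => d.ti x hx s hs hsx)
      (d.alpha i) (d.alpha j) (hcls j) (fun c hc => d.alpha_eq_zero i c hc)
      (fun c hc => d.alpha_eq_zero j c hc) (d.alpha_one j)
    rw [hv i, hv j, CharTheory.classInner_generalized_sum, classInner, hC, d.sum_C] at h1
    simp only [alpha, MulEquiv.apply_symm_apply, alphaK, Zu.conj_toC, ← Zu.toC_mul] at h1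
    rw [Zu.sum_toC fun k => al i k * al j k, gram_check, Zu.toC_int] at h1
    have h2 : ((∑ χ, v i χ * v j χ : ℤ) : ℂ) = ((gram i j : ℤ) : ℂ) := by
      rw [h1]; push_cast; ring
    exact_mod_cast h2
  have hone : ∀ i, v i (CharTheory.trivIrr G) = vone i := by
    intro i
    have h1 := hcoef i (CharTheory.trivIrr G)
    simp only [CharTheory.trivIrr_apply, map_one, mul_one, alphaK] at h1
    rw [Zu.sum_toC (al i), one_check, Zu.toC_int] at h1
    have h2 : ((v i (CharTheory.trivIrr G) : ℤ) : ℂ) = ((vone i : ℤ) : ℂ) := by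
      rw [h1]; push_cast; ring
    exact_mod_cast h2
  have hval : ∀ χ : IrrCharacter G, (χ : G → ℂ) d.t = ((∑ i, tCoef i * v i χ : ℤ) : ℂ) := by
    intro χ
    have hd : ∀ p : K, (2 : ℂ) * alphaK 0 p + 2 * alphaK 1 p + 11 * alphaK 2 p + 9 * alphaK 3 p -
        15 * alphaK 4 p - 5 * alphaK 5 p - 10 * alphaK 6 p = if ty p = 1 then 1920 else 0 := by
      intro p
      have h := congrArg Zu.toC (delta_check (ty p))
      simp only [Zu.toC_add, Zu.toC_mul, Zu.toC_int] at h
      simp only [alphaK]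
      split_ifs at h ⊢ with hk
      · rw [Zu.toC_int] at h; push_cast at h; linear_combination h
      · rw [Zu.toC_zero] at h; push_cast at h; linear_combination h
    have hd' : ∑ p : K, ((2 : ℂ) * alphaK 0 p + 2 * alphaK 1 p + 11 * alphaK 2 p +
        9 * alphaK 3 p - 15 * alphaK 4 p - 5 * alphaK 5 p - 10 * alphaK 6 p) *
        conj ((χ : G → ℂ) (d.φ p)) = 1920 * conj ((χ : G → ℂ) d.t) := by
      simp only [hd]
      have huniq : ∀ p : K, ty p = 1 → p = kz := fun p hp => by
        obtain ⟨h, hh⟩ := exists_conj_rep p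
        rw [← hh, hp, show rep 1 = kz from code_inj (by decide +kernel)]
        have : ∀ h : K, h * kz = kz * h := fun h => d.inj (by
          rw [map_mul, map_mul, d.phi_kz]; exact d.phi_comm h)
        rw [this, mul_inv_cancel_right]
      rw [Finset.sum_eq_single kz (fun p _ hp => by rw [if_neg fun e => hp (huniq p e), zero_mul])
        (by simp), if_pos (show ty kz = 1 by decide +kernel), d.phi_kz]
    rw [BrauerCharacters.conj_apply, inv_eq_of_mul_eq_one_right d.t_sq] at hd'
    simp only [Fin.sum_univ_seven, tCoef, Matrix.cons_val]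
    push_cast
    simp only [hcoef]
    simp only [add_mul, sub_mul, Finset.sum_add_distrib, Finset.sum_sub_distrib, mul_assoc,
      ← Finset.mul_sum] at hd'
    linear_combination (-(1920 : ℂ)⁻¹) * hd'
  have hdeg : ∀ i, ∑ χ, v i χ * (charDegree (χ : G → ℂ) : ℤ) = 0 := by
    intro i
    have h1 := congrFun (hv i) 1
    rw [Frobenius.indFun_one, d.alpha_one] at h1
    simp only [mul_zero, Finset.sum_apply, Pi.smul_apply, smul_eq_mul,
      (fun χ => (BrauerCharacters.charDegree_spec χ).1 : ∀ χ : IrrCharacter G, _)] at h1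
    have h2 : ((∑ χ : IrrCharacter G, v i χ * (charDegree (χ : G → ℂ) : ℤ) : ℤ) : ℂ) = 0 := by
      push_cast; exact h1.symm
    exact_mod_cast h2
  refine ⟨IrrCharacter G, inferInstance, ⟨
    { one := CharTheory.trivIrr G
      f := fun χ => charDegree (χ : G → ℂ)
      v := v
      T := fun χ => ∑ i, tCoef i * v i χ
      T_eq := fun χ => rfl
      gram_eq := hgram
      v_one := hone
      f_one := ?_
      f_dvd := fun χ => (BrauerCharacters.charDegree_spec χ).2.2
      f_sq := ?_
      f_res := ?_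
      f_gt := ?_
      deg := hdeg
      eqn := ?_
      dvd_N := d.dvd_card
      not_dvd_N := d.not_256_dvd }⟩⟩
  · have := (BrauerCharacters.charDegree_spec (CharTheory.trivIrr G)).1
    rw [CharTheory.trivIrr_apply] at this
    exact_mod_cast this.symm
  · intro χ
    have h1 := CharTheory.classInner_self_of_isIrr χ.2
    rw [classInner, inv_mul_eq_one₀ (Nat.cast_ne_zero.2 Nat.card_pos.ne')] at h1
    have h2 : (Nat.card G : ℝ) = ∑ g : G, ‖(χ : G → ℂ) g‖ ^ 2 := by
      have := congrArg Complex.re h1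
      simp only [Complex.mul_conj', Complex.natCast_re, Complex.re_sum] at this
      rw [this]
      exact Finset.sum_congr rfl fun g _ => by norm_cast
    have h3 : ‖(χ : G → ℂ) 1‖ ^ 2 ≤ (Nat.card G : ℝ) := h2 ▸
      Finset.single_le_sum (f := fun g => ‖(χ : G → ℂ) g‖ ^ 2) (fun g _ => sq_nonneg _)
        (Finset.mem_univ 1)
    rw [(BrauerCharacters.charDegree_spec χ).1, Complex.norm_natCast] at h3
    exact_mod_cast h3
  · intro χ
    have hgc : IsGeneralizedCharacter K fun p => (χ : G → ℂ) (d.φ p) :=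
      Coherence.isGeneralizedCharacter_comp (Brauer.isGeneralizedCharacter_of_isCharacter
        (CharTheory.IsIrrCharacter.isCharacter χ.2)) d.φ
    obtain ⟨m, hm⟩ := CharTheory.exists_classInner_eq_int isGeneralizedCharacter_phiK hgc
    simp only [classInner, card_K] at hm
    set c : Fin 16 → ℂ := fun k => conj ((χ : G → ℂ) (d.φ (rep k))) with hcdef
    have hc : ∀ p : K, conj ((χ : G → ℂ) (d.φ p)) = c (fz (ty p)) := fun p => by
      rw [hcdef, d.apply_fz (χ : G → ℂ) (fun g x => BrauerCharacters.apply_conj_elem χ g x) p]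
    have hsum : ∑ p : K, ((128 : ℂ) * phiK p + (18 * alphaK 0 p + 18 * alphaK 1 p -
        5 * alphaK 2 p - 7 * alphaK 3 p - 63 * alphaK 4 p + 43 * alphaK 5 p + 6 * alphaK 6 p)) *
        conj ((χ : G → ℂ) (d.φ p)) = 1920 * c 0 := by
      simp only [hc, phiK, alphaK]
      rw [sum_ty fun k => ((128 : ℂ) * (phi k : ℂ) + (18 * Zu.toC (al 0 k) + 18 * Zu.toC (al 1 k) -
        5 * Zu.toC (al 2 k) - 7 * Zu.toC (al 3 k) - 63 * Zu.toC (al 4 k) + 43 * Zu.toC (al 5 k) +
        6 * Zu.toC (al 6 k))) * c (fz k)]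
      have hw : ∀ k : Fin 16, (csize k : ℂ) * (((128 : ℂ) * (phi k : ℂ) + (18 * Zu.toC (al 0 k) +
          18 * Zu.toC (al 1 k) - 5 * Zu.toC (al 2 k) - 7 * Zu.toC (al 3 k) -
          63 * Zu.toC (al 4 k) + 43 * Zu.toC (al 5 k) + 6 * Zu.toC (al 6 k))) * c (fz k)) =
          ((![1920, 6400, 8960, 15360, -15360, -15360, 0, 0, 81920, 0, -40960, -40960, 0, 0, 0,
            0] k : ℤ) : ℂ) * c (fz k) := by
        intro k
        have h := congrArg Zu.toC (phi_weight k)
        simp only [Zu.toC_add, Zu.toC_mul, Zu.toC_int] at h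
        push_cast at h ⊢
        linear_combination c (fz k) * h
      simp only [hw]
      simp [Fin.sum_univ_succ, fz]
      ring
    have hc0 : c 0 = (charDegree (χ : G → ℂ) : ℂ) := by
      rw [hcdef]
      simp only [show rep 0 = 1 from code_inj (by decide +kernel), map_one,
        (BrauerCharacters.charDegree_spec χ).1, map_natCast]
    simp only [add_mul, sub_mul, Finset.sum_add_distrib, Finset.sum_sub_distrib, mul_assoc,
      ← Finset.mul_sum] at hsum
    refine ⟨m, ?_⟩
    have : ((charDegree (χ : G → ℂ) : ℤ) : ℂ) - ((∑ i, resCoef i * v i χ : ℤ) : ℂ) =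
        ((128 * m : ℤ) : ℂ) := by
      simp only [Fin.sum_univ_seven, resCoef, Matrix.cons_val]
      push_cast
      simp only [hcoef]
      rw [hc0] at hsum
      linear_combination (-(1920 : ℂ)⁻¹) * hsum + (128 : ℂ) * hm
    exact_mod_cast this
  · intro χ hχ
    have h1 := d.abs_lt_degree χ hχ
    rw [hval, (BrauerCharacters.charDegree_spec χ).1, Complex.norm_intCast, Complex.natCast_re]
      at h1
    exact_mod_cast h1
  · intro i
    have hN : (Nat.card G : ℂ) ≠ 0 := Nat.cast_ne_zero.2 Nat.card_pos.ne'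
    set w : ℤ := wPairs i with hw
    have hreal : ∀ u : G, conj (indFun d.C (d.alpha i) u) = indFun d.C (d.alpha i) u := by
      intro u
      simp only [indFun, map_mul, map_inv₀, map_natCast, map_sum]
      congr 1
      refine Finset.sum_congr rfl fun x _ => ?_
      by_cases hx : x⁻¹ * u * x ∈ d.C
      · rw [Frobenius.extendByZero_of_mem _ _ hx, d.conj_alpha]
      · rw [Frobenius.extendByZero_of_not_mem _ _ hx, map_zero]
    have hk := BrauerCharacters.sum_weight_pairs d.t d.t (indFun d.C (d.alpha i))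
    have hl : (1920 : ℂ) * ∑ u : G, indFun d.C (d.alpha i) u * (d.cnt u : ℂ) =
        (Nat.card G : ℂ) * w := by
      have h1 := Frobenius.classInner_indFun d.C (d.alpha i) (fun u => (d.cnt u : ℂ))
        (fun u g => by simp only [d.cnt_conj])
      simp only [classInner, map_natCast, hC] at h1
      rw [d.sum_C] at h1
      have h2' : ∀ p : K, d.alpha i (d.eqv.symm p) * (d.cnt (d.eqv.symm p : d.C) : ℂ) =
          Zu.toC (al i (ty p) * ⟨(npairs (ty p) : ℤ), 0⟩) := by
        intro p
        simp only [alpha, MulEquiv.apply_symm_apply, d.coe_symm, alphaK, Zu.toC_mul, Zu.toC_int]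
        by_cases hj : jexp (ty p) = 0
        · rw [al_zero i _ hj, Zu.toC_zero, zero_mul, zero_mul]
        · rw [d.cnt_eq hj]; push_cast; rfl
      simp only [h2'] at h1
      rw [Zu.sum_toC fun k => al i k * ⟨(npairs k : ℤ), 0⟩, wPairs_check, Zu.toC_int, ← hw] at h1
      field_simp at h1
      push_cast at h1 ⊢
      linear_combination h1
    have hr : ∀ χ : IrrCharacter G, ∑ u : G, indFun d.C (d.alpha i) u * (χ : G → ℂ) u =
        (Nat.card G : ℂ) * (v i χ : ℂ) := by
      intro χ
      have h1 := CharTheory.classInner_sum_irr (fun φ => (v i φ : ℂ)) χ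
      rw [← hv i, classInner] at h1
      have h2 := congrArg conj h1
      simp only [map_mul, map_inv₀, map_natCast, map_sum, Complex.conj_conj, map_intCast, hreal]
        at h2
      rw [← h2, ← mul_assoc, mul_inv_cancel₀ hN, one_mul]
    have hI : ((Subgroup.centralizer ({d.t} : Set G)).index : ℂ) = (Nat.card G : ℂ) / 1920 := by
      rw [← Subgroup.index_mul_card (Subgroup.centralizer ({d.t} : Set G)), hC]
      push_cast
      ring
    have hterm : ∀ χ : IrrCharacter G,
        centralChar (χ : G → ℂ) d.t * conj ((χ : G → ℂ) d.t) *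
          ((Nat.card G : ℂ) * (v i χ : ℂ)) =
        (Nat.card G : ℂ) ^ 2 / 1920 * ((v i χ : ℂ) * ((∑ j, tCoef j * v j χ : ℤ) : ℂ) ^ 2 /
            (charDegree (χ : G → ℂ) : ℂ)) := by
      intro χ
      rw [centralChar, hI, hval, map_intCast, (BrauerCharacters.charDegree_spec χ).1]
      ring
    have hk' : ∑ u : G, indFun d.C (d.alpha i) u * (d.cnt u : ℂ) =
        ((Subgroup.centralizer ({d.t} : Set G)).index : ℂ) / (Nat.card G : ℂ) *
          ∑ χ : IrrCharacter G, centralChar (χ : G → ℂ) d.t * conj ((χ : G → ℂ) d.t) *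
            ∑ u : G, indFun d.C (d.alpha i) u * (χ : G → ℂ) u := by
      refine Eq.trans ?_ hk
      exact Finset.sum_congr rfl fun u _ => by unfold cnt; congr!
    rw [hk'] at hl
    simp only [hr, hterm, ← Finset.mul_sum, hI] at hl
    have key : (Nat.card G : ℂ) * ∑ χ : IrrCharacter G, (v i χ : ℂ) *
        ((∑ j, tCoef j * v j χ : ℤ) : ℂ) ^ 2 /
          (charDegree (χ : G → ℂ) : ℂ) = 1920 * (w : ℂ) := by
      field_simp at hl
      linear_combination hl
    have key' : (((Nat.card G : ℚ) * ∑ χ : IrrCharacter G, (v i χ : ℚ) *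
        ((∑ j, tCoef j * v j χ : ℤ) : ℚ) ^ 2 /
          (charDegree (χ : G → ℂ) : ℚ) : ℚ) : ℂ) = ((1920 * (w : ℚ) : ℚ) : ℂ) := by
      push_cast
      push_cast at key
      exact key
    exact_mod_cast key'

end Cen

end CfsgLib.JankoThree
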