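import Cfsg.Agent.Lib.JankoThree.Group

/-!
Finite checks on the model used to identify an involution centraliser with it.
-/

set_option autoImplicit false
set_option maxRecDepth 100000
set_option synthInstance.maxSize 2000
set_option synthInstance.maxHeartbeats 200000
set_option maxSynthPendingDepth 3
set_option Elab.async false

namespace CfsgLib.JankoThree

/-- The five generators. -/
def egen : Fin 5 → E := ![⟨1⟩, ⟨2⟩, ⟨4⟩, ⟨8⟩, ⟨15⟩]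

/-- The central involution. -/
def ez : E := ⟨16⟩

/-- The element with given bits. -/
def ebit (b0 b1 b2 b3 b4 : Bool) : E :=
  ⟨Fin.ofNat 32 (b0.toNat + 2 * b1.toNat + 4 * b2.toNat + 8 * b3.toNat + 16 * b4.toNat)⟩

theorem ebit_step : ∀ b0 b1 b2 b3 b4 : Bool,
    ebit b0 b1 b2 b3 b4 * egen 0 = ebit (!b0) b1 b2 b3 (b4 ^^ (b1 ^^ (b2 ^^ b3))) ∧
    ebit b0 b1 b2 b3 b4 * egen 1 = ebit b0 (!b1) b2 b3 (b4 ^^ (b2 ^^ b3)) ∧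
    ebit b0 b1 b2 b3 b4 * egen 2 = ebit b0 b1 (!b2) b3 (b4 ^^ b3) ∧
    ebit b0 b1 b2 b3 b4 * egen 3 = ebit b0 b1 b2 (!b3) b4 ∧
    ebit b0 b1 b2 b3 b4 * ez = ebit b0 b1 b2 b3 (!b4) := by
  decide +kernel

theorem ebit_word : ∀ b0 b1 b2 b3 b4 : Bool, ebit b0 b1 b2 b3 b4 =
    (if b0 then egen 0 else 1) * (if b1 then egen 1 else 1) * (if b2 then egen 2 else 1) *
      (if b3 then egen 3 else 1) * (if b4 then ez else 1) := by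
  decide +kernel

theorem ebit_surj : ∀ x : Fin 32, ∃ b0 b1 b2 b3 b4 : Bool, (⟨x⟩ : E) = ebit b0 b1 b2 b3 b4 := by
  decide +kernel

theorem ebit_bits : ∀ b0 b1 b2 b3 b4 : Bool,
    (ebit b0 b1 b2 b3 b4).val.val.testBit 0 = b0 ∧ (ebit b0 b1 b2 b3 b4).val.val.testBit 1 = b1 ∧
    (ebit b0 b1 b2 b3 b4).val.val.testBit 2 = b2 ∧ (ebit b0 b1 b2 b3 b4).val.val.testBit 3 = b3 ∧
    (ebit b0 b1 b2 b3 b4).val.val.testBit 4 = b4 := by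
  decide +kernel

theorem e_kernel : ∀ x : Fin 32, (⟨x⟩ : E) = 1 ∨ (⟨x⟩ : E) = ez ∨
    ∃ i : Fin 4, (⟨x⟩ : E) * egen i.castSucc = egen i.castSucc * ⟨x⟩ * ez := by
  decide +kernel

theorem egen_four : egen 0 * egen 1 * egen 2 * egen 3 = egen 4 := by decide +kernel

theorem egen_anti : ∀ i j : Fin 5, i ≠ j → egen i * egen j = egen j * egen i * ez := by
  decide +kernel

theorem egen_sq : ∀ i : Fin 5, egen i * egen i = 1 := by decide +kernel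

theorem act_egen : ∀ (a : Fin 60) (i : Fin 5), act ⟨a⟩ (egen i) = egen (A.pt ⟨a⟩ i) := by
  decide +kernel

theorem act_ez : ∀ a : Fin 60, act ⟨a⟩ ez = ez := by decide +kernel

/-- A power of the central involution. -/
def zp (b : Bool) : E := if b then ez else 1

/-- The signed images of the generators. -/
def eimg (a : A) (e0 e1 e2 e3 e4 : Bool) : Fin 5 → E :=
  ![egen (a.pt 0) * zp e0, egen (a.pt 1) * zp e1, egen (a.pt 2) * zp e2, egen (a.pt 3) * zp e3,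
    egen (a.pt 4) * zp e4]

theorem adjust : ∀ (a : Fin 60) (e0 e1 e2 e3 e4 : Bool),
    eimg ⟨a⟩ e0 e1 e2 e3 e4 0 * eimg ⟨a⟩ e0 e1 e2 e3 e4 1 * eimg ⟨a⟩ e0 e1 e2 e3 e4 2 *
      eimg ⟨a⟩ e0 e1 e2 e3 e4 3 = eimg ⟨a⟩ e0 e1 e2 e3 e4 4 →
    ∃ x : Fin 32, ∀ i : Fin 5,
      (⟨x⟩ : E) * eimg ⟨a⟩ e0 e1 e2 e3 e4 i * (⟨x⟩ : E)⁻¹ = egen (A.pt ⟨a⟩ i) := by
  decide +kernel

theorem invol_conj : ∀ a b : Fin 60, (⟨a⟩ : A) ≠ 1 → (⟨a⟩ : A) * ⟨a⟩ = 1 → (⟨b⟩ : A) ≠ 1 →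
    (⟨b⟩ : A) * ⟨b⟩ = 1 → ∃ g : Fin 60, (⟨g⟩ : A) * ⟨a⟩ * (⟨g⟩ : A)⁻¹ = ⟨b⟩ := by
  decide +kernel

theorem four_group : ∃ a b : Fin 60, (⟨a⟩ : A) ≠ 1 ∧ (⟨b⟩ : A) ≠ 1 ∧ (⟨a⟩ : A) * ⟨a⟩ = 1 ∧
    (⟨b⟩ : A) * ⟨b⟩ = 1 ∧ (⟨a⟩ : A) * ⟨b⟩ = ⟨b⟩ * ⟨a⟩ ∧ (⟨a⟩ : A) * ⟨b⟩ ≠ 1 := by
  decide +kernel

/-- The square of the lift of an involution in the non-split case. -/
def eta (a : A) : E := if a = 1 then 1 else ez

/-- Elements commuting with the fifth generator with a given square, in the non-split case. -/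
def sqSet (s : E) : Finset (Fin 32 × Fin 60) :=
  Finset.univ.filter fun p => (⟨p.2⟩ : A) * ⟨p.2⟩ = 1 ∧
    (⟨p.1⟩ : E) * act ⟨p.2⟩ (egen 4) * (⟨p.1⟩ : E)⁻¹ = egen 4 ∧
    (⟨p.1⟩ : E) * act ⟨p.2⟩ ⟨p.1⟩ * eta ⟨p.2⟩ = s

theorem sqSet_card : (sqSet (egen 4)).card < (sqSet ez).card := by decide +kernel

theorem nonsplit_no_invol : ∀ (a : Fin 60) (x : Fin 32), (⟨a⟩ : A) ≠ 1 → (⟨a⟩ : A) * ⟨a⟩ = 1 →
    (⟨x⟩ : E) * act ⟨a⟩ ⟨x⟩ * ez ≠ 1 := by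
  decide +kernel

end CfsgLib.JankoThree
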