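import Cfsg.Agent.Lib.JankoThree.SearchDef

/-!
Part 1 of the search for the orders.
-/

set_option autoImplicit false
set_option maxRecDepth 100000
set_option Elab.async false

namespace CfsgLib.JankoThree

theorem search1_0 : checkDatum ((36, 42), (441, 37), (1156, 50)) = true := by decide +kernel

theorem search1_1 : checkDatum ((1, 127), (400, 20), (900, 110)) = true := by decide +kernel

theorem search1_2 : checkDatum ((16, 36), (225, 79), (900, 14)) = true := by decide +kernel

theorem search1_3 : checkDatum ((81, 121), (100, 122), (900, 14)) = true := by decide +kernel

theorem search1_4 : checkDatum ((25, 53), (400, 20), (576, 56)) = true := by decide +kernel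

theorem search1_5 : checkDatum ((81, 121), (225, 79), (625, 57)) = true := by decide +kernel

theorem search1_6 : checkDatum ((81, 121), (324, 98), (484, 38)) = true := by decide +kernel

theorem search1_7 : checkDatum ((100, 122), (289, 97), (484, 38)) = true := by decide +kernel

end CfsgLib.JankoThree
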