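import Cfsg.Agent.Lib.JankoThree.SearchDef

/-!
Part 2 of the search for the orders.
-/

set_option autoImplicit false
set_option maxRecDepth 100000
set_option Elab.async false

namespace CfsgLib.JankoThree

theorem search2_0 : checkDatum ((36, 42), (529, 55), (1024, 32)) = true := by decide +kernel

theorem search2_1 : checkDatum ((4, 18), (225, 79), (1024, 32)) = true := by decide +kernel

theorem search2_2 : checkDatum ((25, 53), (144, 44), (1024, 32)) = true := by decide +kernel

theorem search2_3 : checkDatum ((16, 36), (324, 98), (729, 123)) = true := by decide +kernel

theorem search2_4 : checkDatum ((49, 103), (225, 31), (729, 123)) = true := by decide +kernel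

theorem search2_5 : checkDatum ((49, 103), (324, 98), (576, 56)) = true := by decide +kernel

theorem search2_6 : checkDatum ((81, 121), (361, 99), (441, 37)) = true := by decide +kernel

theorem search2_7 : checkDatum ((81, 121), (400, 20), (400, 116)) = true := by decide +kernel

end CfsgLib.JankoThree
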