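import Cfsg.Agent.Lib.JankoThree.SearchDef

/-!
Part 3 of the search for the orders.
-/

set_option autoImplicit false
set_option maxRecDepth 100000
set_option Elab.async false

namespace CfsgLib.JankoThree

theorem search3_0 : checkDatum ((1, 127), (225, 79), (1225, 51)) = true := by decide +kernel

theorem search3_1 : checkDatum ((1, 127), (361, 99), (961, 31)) = true := by decide +kernel

theorem search3_2 : checkDatum ((49, 103), (100, 122), (1024, 32)) = true := by decide +kernel

theorem search3_3 : checkDatum ((16, 36), (400, 36), (625, 57)) = true := by decide +kernel

theorem search3_4 : checkDatum ((16, 36), (441, 37), (576, 56)) = true := by decide +kernel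

theorem search3_5 : checkDatum ((25, 53), (484, 38), (484, 38)) = true := by decide +kernel

theorem search3_6 : checkDatum ((81, 105), (400, 36), (400, 116)) = true := by decide +kernel

theorem search3_7 : checkDatum ((144, 44), (196, 30), (529, 55)) = true := by decide +kernel

theorem search3_8 : checkDatum ((196, 62), (289, 97), (324, 98)) = true := by decide +kernel

end CfsgLib.JankoThree
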