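import Cfsg.Agent.Lib.JankoThree.SearchDef

/-!
Part 4 of the search for the orders.
-/

set_option autoImplicit false
set_option maxRecDepth 100000
set_option Elab.async false

namespace CfsgLib.JankoThree

theorem search4_0 : checkDatum ((36, 42), (576, 56), (961, 31)) = true := by decide +kernel

theorem search4_1 : checkDatum ((1, 127), (324, 98), (1024, 32)) = true := by decide +kernel

theorem search4_2 : checkDatum ((16, 36), (196, 62), (961, 31)) = true := by decide +kernel

theorem search4_3 : checkDatum ((4, 18), (529, 55), (576, 56)) = true := by decide +kernel

theorem search4_4 : checkDatum ((16, 36), (484, 38), (529, 55)) = true := by decide +kernel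

theorem search4_5 : checkDatum ((81, 121), (225, 31), (625, 105)) = true := by decide +kernel

theorem search4_6 : checkDatum ((81, 105), (289, 97), (529, 55)) = true := by decide +kernel

theorem search4_7 : checkDatum ((100, 42), (361, 99), (400, 116)) = true := by decide +kernel

end CfsgLib.JankoThree
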