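import Cfsg.Agent.Lib.JankoThree.SearchDef

/-!
Part 5 of the search for the orders.
-/

set_option autoImplicit false
set_option maxRecDepth 100000
set_option Elab.async false

namespace CfsgLib.JankoThree

theorem search5_0 : checkDatum ((36, 42), (625, 73), (900, 14)) = true := by decide +kernel

theorem search5_1 : checkDatum ((49, 103), (49, 103), (1225, 51)) = true := by decide +kernel

theorem search5_2 : checkDatum ((25, 85), (196, 62), (900, 110)) = true := by decide +kernel

theorem search5_3 : checkDatum ((16, 36), (400, 20), (625, 73)) = true := by decide +kernel

theorem search5_4 : checkDatum ((16, 36), (400, 116), (625, 105)) = true := by decide +kernel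

theorem search5_5 : checkDatum ((49, 103), (289, 97), (625, 57)) = true := by decide +kernel

theorem search5_6 : checkDatum ((49, 103), (400, 116), (484, 38)) = true := by decide +kernel

theorem search5_7 : checkDatum ((144, 44), (289, 97), (400, 116)) = true := by decide +kernel

theorem search5_8 : checkDatum ((225, 79), (225, 79), (361, 99)) = true := by decide +kernel

end CfsgLib.JankoThree
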