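import Cfsg.Agent.Lib.JankoThree.SearchDef

/-!
Part 6 of the search for the orders.
-/

set_option autoImplicit false
set_option maxRecDepth 100000
set_option Elab.async false

namespace CfsgLib.JankoThree

theorem search6_0 : checkDatum ((36, 42), (625, 105), (900, 110)) = true := by decide +kernel

theorem search6_1 : checkDatum ((25, 85), (100, 122), (1156, 50)) = true := by decide +kernel

theorem search6_2 : checkDatum ((81, 105), (81, 121), (961, 31)) = true := by decide +kernel

theorem search6_3 : checkDatum ((81, 105), (100, 42), (900, 110)) = true := by decide +kernel

theorem search6_4 : checkDatum ((25, 85), (361, 99), (625, 73)) = true := by decide +kernel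

theorem search6_5 : checkDatum ((49, 103), (361, 99), (529, 55)) = true := by decide +kernel

theorem search6_6 : checkDatum ((100, 122), (225, 79), (576, 56)) = true := by decide +kernel

theorem search6_7 : checkDatum ((196, 30), (196, 62), (441, 37)) = true := by decide +kernel

theorem search6_8 : checkDatum ((196, 62), (225, 31), (400, 36)) = true := by decide +kernel

end CfsgLib.JankoThree
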