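import Cfsg.Agent.Lib.JankoThree.SearchDef

/-!
Part 7 of the search for the orders.
-/

set_option autoImplicit false
set_option maxRecDepth 100000
set_option Elab.async false

namespace CfsgLib.JankoThree

theorem search7_0 : checkDatum ((16, 36), (100, 42), (1225, 51)) = true := by decide +kernel

theorem search7_1 : checkDatum ((25, 85), (81, 121), (1225, 51)) = true := by decide +kernel

theorem search7_2 : checkDatum ((25, 53), (196, 62), (900, 14)) = true := by decide +kernel

theorem search7_3 : checkDatum ((4, 18), (484, 38), (625, 73)) = true := by decide +kernel

theorem search7_4 : checkDatum ((25, 53), (361, 99), (625, 105)) = true := by decide +kernel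

theorem search7_5 : checkDatum ((81, 105), (225, 79), (625, 73)) = true := by decide +kernel

theorem search7_6 : checkDatum ((100, 122), (196, 30), (625, 105)) = true := by decide +kernel

theorem search7_7 : checkDatum ((196, 30), (225, 79), (400, 20)) = true := by decide +kernel

theorem search7_8 : checkDatum ((196, 62), (225, 79), (400, 116)) = true := by decide +kernel

end CfsgLib.JankoThree
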