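import Cfsg.Agent.Lib.JankoThree.Search0
import Cfsg.Agent.Lib.JankoThree.Search1
import Cfsg.Agent.Lib.JankoThree.Search2
import Cfsg.Agent.Lib.JankoThree.Search3
import Cfsg.Agent.Lib.JankoThree.Search4
import Cfsg.Agent.Lib.JankoThree.Search5
import Cfsg.Agent.Lib.JankoThree.Search6
import Cfsg.Agent.Lib.JankoThree.Search7
import Cfsg.Agent.Lib.JankoThree.ColsData

/-!
All parts of the search.
-/

set_option autoImplicit false
set_option maxRecDepth 100000

namespace CfsgLib.JankoThree

theorem checkDatum_all : ∀ d ∈ dataFour, checkDatum d = true := by
  intro d hd
  simp only [dataFour, List.mem_cons, List.not_mem_nil, or_false] at hd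
  rcases hd with rfl | rfl | rfl | rfl | rfl | rfl | rfl | rfl | rfl | rfl | rfl | rfl | rfl | rfl | rfl | rfl | rfl | rfl | rfl | rfl | rfl | rfl | rfl | rfl | rfl | rfl | rfl | rfl | rfl | rfl | rfl | rfl | rfl | rfl | rfl | rfl | rfl | rfl | rfl | rfl | rfl | rfl | rfl | rfl | rfl | rfl | rfl | rfl | rfl | rfl | rfl | rfl | rfl | rfl | rfl | rfl | rfl | rfl | rfl | rfl | rfl | rfl | rfl | rfl | rfl | rfl | rfl | rfl
  · exact search3_0
  · exact search4_1
  · exact search3_1
  · exact search1_1
  · exact search0_1
  · exact search2_1
  · exact search0_3
  · exact search7_3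
  · exact search4_3
  · exact search7_0
  · exact search4_2
  · exact search1_2
  · exact search2_3
  · exact search5_3
  · exact search3_3
  · exact search5_4
  · exact search3_4
  · exact search4_4
  · exact search2_2
  · exact search7_2
  · exact search7_4
  · exact search1_4
  · exact search3_5
  · exact search7_1
  · exact search6_1
  · exact search5_2
  · exact search6_4
  · exact search0_4
  · exact search0_0
  · exact search1_0
  · exact search2_0
  · exact search4_0
  · exact search5_0
  · exact search6_0
  · exact search5_1
  · exact search3_2
  · exact search0_2
  · exact search2_4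
  · exact search5_5
  · exact search2_5
  · exact search6_5
  · exact search5_6
  · exact search6_2
  · exact search6_3
  · exact search7_5
  · exact search4_6
  · exact search3_6
  · exact search1_3
  · exact search4_5
  · exact search1_5
  · exact search1_6
  · exact search2_6
  · exact search2_7
  · exact search0_5
  · exact search0_6
  · exact search4_7
  · exact search7_6
  · exact search6_6
  · exact search1_7
  · exact search0_7
  · exact search3_7
  · exact search5_7
  · exact search6_7
  · exact search7_7
  · exact search6_8
  · exact search7_8
  · exact search3_8
  · exact search5_8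

end CfsgLib.JankoThree
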