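import Cfsg.Agent.Lib.JankoThree.Cols
import Cfsg.Agent.Lib.JankoThree.SearchAll
import Cfsg.Agent.Lib.JankoThree.Exclude

/-!
The numerical data force the order `50232960`.
-/

set_option autoImplicit false
set_option maxRecDepth 10000

namespace CfsgLib.JankoThree

universe u

theorem scan_spec (s₁ s₂ s₃ : ℕ) (x : ℤ) : ∀ (n : ℕ) (y : ℤ),
    scan s₁ s₂ s₃ x (1 - x) (x - (s₁ : ℤ)) (29184000 * x.natAbs) n y = true →
      ∀ i < n, cell s₁ s₂ s₃ x (y + 128 * (i : ℤ)) = true := by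
  intro n
  induction n with
  | zero => intro y _ i hi; exact absurd hi (by omega)
  | succ n ih =>
    intro y h i hi
    rw [scan] at h
    have es : ∀ a b : ℤ, Int.sub a b = a - b := fun _ _ => rfl
    have em : ∀ a b : ℤ, Int.mul a b = a * b := fun _ _ => rfl
    have ea : ∀ a b : ℤ, Int.add a b = a + b := fun _ _ => rfl
    have ec : ∀ a : ℕ, Int.ofNat a = (a : ℤ) := fun _ => rfl
    simp only [es, em, ea, ec] at h
    have key : cell s₁ s₂ s₃ x y = true ∧
        scan s₁ s₂ s₃ x (1 - x) (x - (s₁ : ℤ)) (29184000 * x.natAbs) n (y + 128) = true := by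
      split at h
      · exact Bool.and_eq_true_iff.1 h
      · rename_i hb
        refine ⟨?_, h⟩
        simp only [cell, Bool.or_eq_true, Bool.not_eq_true']
        refine Or.inl (Or.inl ?_)
        rw [show (29184000 * (x * y * (1 - x - y))).natAbs =
            29184000 * x.natAbs * (y * (1 - x - y)).natAbs by
          simp [Int.natAbs_mul, mul_assoc],
          show x * y * (1 - x - y) - (s₁ : ℤ) * (y * (1 - x - y)) - (s₂ : ℤ) * (x * (1 - x - y)) -
            (s₃ : ℤ) * (x * y) = (x - (s₁ : ℤ)) * (y * (1 - x - y)) -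
            x * ((s₂ : ℤ) * (1 - x - y) + (s₃ : ℤ) * y) by ring]
        exact hb
    rcases i with _ | i
    · simpa using key.1
    · have := ih (y + 128) key.2 i (by omega)
      rwa [show y + 128 + 128 * (i : ℤ) = y + 128 * ((i + 1 : ℕ) : ℤ) by push_cast; ring] at this

theorem exists_opt {r : ℕ} {lo hi x : ℤ} (hr : (128 : ℤ) ∣ x - r) (hlo : lo ≤ x) (hhi : x ≤ hi) :
    ∃ i < ((hi - (lo + ((r : ℤ) - lo) % 128)) / 128 + 1).toNat,
      x = lo + ((r : ℤ) - lo) % 128 + 128 * (i : ℤ) := by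
  obtain ⟨m, hm⟩ := hr
  exact ⟨((x - (lo + ((r : ℤ) - lo) % 128)) / 128).toNat, by omega, by omega⟩

theorem mem_opts {r : ℕ} {lo hi x : ℤ} (hr : (128 : ℤ) ∣ x - r) (hlo : lo ≤ x) (hhi : x ≤ hi) :
    x ∈ opts r lo hi := by
  obtain ⟨i, hi', rfl⟩ := exists_opt hr hlo hhi
  exact List.mem_map.2 ⟨i, List.mem_range.2 hi', rfl⟩

theorem line_spec {p q r : ℕ × ℕ} {x lo hi y : ℤ} (h : line p q r x lo hi = true)
    (hr : (128 : ℤ) ∣ y - q.2) (hlo : lo ≤ y) (hhi : y ≤ hi) :
    cell p.1 q.1 r.1 x y = true := by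
  obtain ⟨i, hi', rfl⟩ := exists_opt hr hlo hhi
  exact scan_spec _ _ _ _ _ _ h i hi'

theorem side_ne_zero {N : ℕ} {p : ℕ × ℕ} {x : ℤ} (h : Side N p x) : x ≠ 0 := by
  rintro rfl
  have := h.2.1
  simp at this
  omega

theorem cell_concl {N : ℕ} {p q r : ℕ × ℕ} {x y z : ℤ} (hN : 1920 ∣ N) (hN' : ¬ 256 ∣ N)
    (hN0 : 0 < N) (hx : Side N p x) (hy : Side N q y) (hz : Side N r z) (hs : x + y + z = 1)
    (heq : (N : ℚ) * (1 - ((p.1 : ℚ) / x + (q.1 : ℚ) / y + (r.1 : ℚ) / z)) = 29184000)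
    (hcell : cell p.1 q.1 r.1 x y = true) : (N : ℤ) ∈ candList := by
  have hx0 := side_ne_zero hx
  have hy0 := side_ne_zero hy
  have hz0 := side_ne_zero hz
  obtain rfl : z = 1 - x - y := by omega
  set num := x * y * (1 - x - y) - (p.1 : ℤ) * (y * (1 - x - y)) -
    (q.1 : ℤ) * (x * (1 - x - y)) - (r.1 : ℤ) * (x * y) with hnum
  have hz0' : (1 : ℚ) - x - y ≠ 0 := by exact_mod_cast hz0
  have hmul : (N : ℤ) * num = 29184000 * (x * y * (1 - x - y)) := by
    have : (N : ℚ) * (num : ℚ) = 29184000 * ((x : ℚ) * y * (1 - x - y)) := by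
      rw [hnum, ← heq]
      push_cast
      field_simp
      ring
    exact_mod_cast this
  have hp0 : (29184000 : ℤ) * (x * y * (1 - x - y)) ≠ 0 :=
    mul_ne_zero (by norm_num) (mul_ne_zero (mul_ne_zero hx0 hy0) hz0)
  have hn0 : num ≠ 0 := fun h => hp0 (by rw [← hmul, h, mul_zero])
  simp only [cell, ← hnum, ← hmul, Int.mul_ediv_cancel _ hn0] at hcell
  have hmod : ((N : ℤ) * num).natAbs % num.natAbs = 0 := by
    rw [Int.natAbs_mul, Nat.mul_mod_left]
  have hgood : goodN (N : ℤ) x y (1 - x - y) = true := by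
    have e : ∀ w : ℤ, w ∣ (N : ℤ) → N % w.natAbs = 0 := fun w hw =>
      Nat.mod_eq_zero_of_dvd (Int.dvd_natCast.1 hw)
    simp only [goodN, Int.natAbs_natCast, Bool.and_eq_true, decide_eq_true_eq]
    refine ⟨⟨⟨⟨⟨⟨⟨⟨by exact_mod_cast hN0, ?_⟩, ?_⟩, ?_⟩, ?_⟩, ?_⟩, ?_⟩, ?_⟩, ?_⟩
    · rw [Nat.beq_eq]; omega
    · rw [Nat.beq_eq]; omega
    · rw [e x hx.2.2.1]; rfl
    · rw [e y hy.2.2.1]; rfl
    · rw [e _ hz.2.2.1]; rfl
    · rw [← sq]; exact hx.2.2.2
    · rw [← sq]; exact hy.2.2.2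
    · rw [← sq]; exact hz.2.2.2
  simpa [hmod, hgood, List.contains_iff_mem] using hcell

theorem div_le_sixth {s : ℕ} {x : ℤ} (hx : x ≠ 0) (h : big s x = true) :
    (s : ℚ) / x ≤ 1 / 6 := by
  simp only [big, decide_eq_true_eq] at h
  rcases h with h | h
  · have h' : (x : ℚ) < 0 := by exact_mod_cast h
    have := div_nonpos_of_nonneg_of_nonpos (show (0 : ℚ) ≤ s by positivity) h'.le
    linarith
  · have h0 : (0 : ℤ) < x := by omega
    have h' : (0 : ℚ) < x := by exact_mod_cast h0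
    have h6 : (6 : ℚ) * s ≤ x := by exact_mod_cast h
    rw [div_le_iff₀ h']
    linarith

theorem small_case {N : ℕ} {p q r : ℕ × ℕ} {x y z : ℤ} (hN : 1920 ∣ N) (hN' : ¬ 256 ∣ N)
    (hN0 : 0 < N) (hx : Side N p x) (hy : Side N q y) (hz : Side N r z) (hs : x + y + z = 1)
    (heq : (N : ℚ) * (1 - ((p.1 : ℚ) / x + (q.1 : ℚ) / y + (r.1 : ℚ) / z)) = 29184000)
    (hsmall : big p.1 x ≠ true) (hchk : checkSmall p q r = true) : (N : ℤ) ∈ candList := by
  have hx0 := side_ne_zero hx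
  have hy0 := side_ne_zero hy
  have hz0 := side_ne_zero hz
  simp only [big, ne_eq, decide_eq_true_eq, not_or, not_lt, not_le] at hsmall
  obtain ⟨hxn, hxs⟩ := hsmall
  simp only [checkSmall, List.all_eq_true] at hchk
  have h := hchk x (mem_opts hx.1 (by omega) (by omega))
  simp only [Bool.and_eq_true, decide_eq_true_eq, Bool.not_eq_true'] at h
  obtain ⟨⟨he, hY⟩, hline⟩ := h
  have he' : (x - (p.1 : ℤ)).natAbs ≠ 0 := Nat.ne_of_beq_eq_false he
  set e := (x - (p.1 : ℤ)).natAbs with hedef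
  set Y := ybound p q r x with hYdef
  suffices hyY : y.natAbs ≤ Y by
    exact cell_concl hN hN' hN0 hx hy hz hs heq
      (line_spec hline hy.1 (by omega) (by omega))
  by_contra hbig
  set L := 2 * (q.1 + r.1) * x.natAbs / e with hL
  have hYL : L + x.natAbs + 2 ≤ Y := by
    rw [hYdef, ybound, hL, hedef]; exact le_max_right _ _
  have hLlt : 2 * (q.1 + r.1) * x.natAbs < (L + 1) * e := by
    rw [mul_comm (L + 1)]
    exact Nat.lt_mul_div_succ _ (Nat.pos_of_ne_zero he')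
  have hbound : ∀ (s : ℕ) (v : ℤ), v ≠ 0 → L + 1 ≤ v.natAbs →
      |(s : ℚ) / v| ≤ (s : ℚ) / (L + 1 : ℕ) := by
    intro s v hv hvL
    rw [abs_div, Nat.abs_cast]
    refine div_le_div_of_nonneg_left (Nat.cast_nonneg _) (by positivity) ?_
    rw [← Int.cast_abs, Int.abs_eq_natAbs]
    exact_mod_cast hvL
  have hy2 := hbound q.1 y hy0 (by omega)
  have hz2 := hbound r.1 z hz0 (by omega)
  have hxq : (0 : ℚ) < x := by exact_mod_cast (show (0 : ℤ) < x by omega)
  have hxa : (x : ℚ) = (x.natAbs : ℚ) := by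
    rw [← Int.cast_natCast, Int.natAbs_of_nonneg hxn]
  have hefrac : |1 - (p.1 : ℚ) / x| = (e : ℚ) / (x.natAbs : ℚ) := by
    rw [one_sub_div hxq.ne', abs_div, abs_of_pos hxq, ← hxa, hedef]
    congr 1
    rw [Nat.cast_natAbs, Int.cast_abs]
    push_cast
    rfl
  have hsum : (q.1 : ℚ) / (L + 1 : ℕ) + (r.1 : ℚ) / (L + 1 : ℕ) < (e : ℚ) / (x.natAbs : ℚ) / 2 := by
    have hx' : (0 : ℚ) < (x.natAbs : ℚ) := hxa ▸ hxq
    have hlt : (2 : ℚ) * ((q.1 : ℚ) + r.1) * x.natAbs < ((L + 1 : ℕ) : ℚ) * e := by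
      exact_mod_cast hLlt
    rw [← add_div, div_div, div_lt_div_iff₀ (by positivity) (by positivity)]
    linarith
  have hlow : (e : ℚ) / (x.natAbs : ℚ) / 2 ≤
      |1 - ((p.1 : ℚ) / x + (q.1 : ℚ) / y + (r.1 : ℚ) / z)| := by
    have h1 := abs_sub_abs_le_abs_sub (1 - (p.1 : ℚ) / x) ((q.1 : ℚ) / y + (r.1 : ℚ) / z)
    have h2 := abs_add_le ((q.1 : ℚ) / y) ((r.1 : ℚ) / z)
    rw [show 1 - ((p.1 : ℚ) / x + (q.1 : ℚ) / y + (r.1 : ℚ) / z) =
      1 - (p.1 : ℚ) / x - ((q.1 : ℚ) / y + (r.1 : ℚ) / z) by ring]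
    rw [hefrac] at h1
    linarith
  have hNq : (N : ℚ) * e ≤ 58368000 * (x.natAbs : ℚ) := by
    have h1 := mul_le_mul_of_nonneg_left hlow (Nat.cast_nonneg (α := ℚ) N)
    rw [← Nat.abs_cast N, ← abs_mul, heq, Nat.abs_cast] at h1
    norm_num at h1
    have hx' : (0 : ℚ) < (x.natAbs : ℚ) := hxa ▸ hxq
    rw [← mul_div_assoc, ← mul_div_assoc, div_div, div_le_iff₀ (by positivity)] at h1
    rw [abs_of_pos hxq] at h1
    linarith [hxa]
  have hNB : N ≤ 58368000 * x.natAbs / e := by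
    rw [Nat.le_div_iff_mul_le (Nat.pos_of_ne_zero he')]
    exact_mod_cast hNq
  have hyN : (y.natAbs * y.natAbs : ℕ) ≤ N := by
    have := hy.2.2.2
    have h2 : ((y.natAbs * y.natAbs : ℕ) : ℤ) ≤ (N : ℤ) := by
      push_cast
      rw [← abs_mul, abs_mul_self, ← sq]
      exact this
    exact_mod_cast h2
  have : Y * Y < y.natAbs * y.natAbs := by nlinarith
  omega

namespace Numeric

variable {N : ℕ} {ι : Type u} [Fintype ι] (D : Numeric N ι)

include D in
theorem pos : 0 < N := by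
  refine Nat.pos_of_ne_zero fun h => D.not_dvd_N ?_
  rw [h]; exact dvd_zero _

include D in
theorem mem_candList : (N : ℤ) ∈ candList := by
  obtain ⟨d, hd, x, y, z, hx, hy, hz, hs, heq⟩ := D.sum_three 1
  have h1 : (∑ i, tCoef i * vone i : ℤ) = 1 := by decide +kernel
  have h2 : vone (idx 1) = -1 := rfl
  have h3 : wPairs (idx 1) = -15200 := rfl
  rw [h1, h2, h3] at heq
  rw [h2] at hs
  obtain ⟨p, q, r⟩ := d
  simp only at hx hy hz heq
  have hs' : x + y + z = 1 := by omega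
  have heq' : (N : ℚ) * (1 - ((p.1 : ℚ) / x + (q.1 : ℚ) / y + (r.1 : ℚ) / z)) = 29184000 := by
    push_cast at heq
    linarith
  have hchk := checkDatum_all _ hd
  simp only [checkDatum, Bool.and_eq_true] at hchk
  obtain ⟨⟨⟨hb, h1⟩, h2⟩, h3⟩ := hchk
  have hN0 := D.pos
  by_cases bx : big p.1 x = true
  swap
  · exact small_case D.dvd_N D.not_dvd_N hN0 hx hy hz hs' heq' bx h1
  by_cases bq : big q.1 y = true
  swap
  · exact small_case D.dvd_N D.not_dvd_N hN0 hy hz hx (by omega) (by rw [← heq']; ring) bq h2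
  by_cases br : big r.1 z = true
  swap
  · exact small_case D.dvd_N D.not_dvd_N hN0 hz hx hy (by omega) (by rw [← heq']; ring) br h3
  have hle : (N : ℚ) ≤ 58368000 := by
    have e1 := div_le_sixth (side_ne_zero hx) bx
    have e2 := div_le_sixth (side_ne_zero hy) bq
    have e3 := div_le_sixth (side_ne_zero hz) br
    nlinarith
  have hle' : (N : ℤ) ≤ 58368000 := by exact_mod_cast hle
  have hb7 : ∀ w : ℤ, w ^ 2 ≤ (N : ℤ) → -7640 ≤ w ∧ w ≤ 7640 := fun w hw =>
    ⟨by nlinarith, by nlinarith⟩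
  have ax := hb7 x hx.2.2.2
  have ay := hb7 y hy.2.2.2
  have az := hb7 z hz.2.2.2
  simp only [checkBig, List.all_eq_true] at hb
  have h := hb x (mem_opts hx.1 ax.1 ax.2)
  rw [bx, Bool.not_true, Bool.false_or] at h
  exact cell_concl D.dvd_N D.not_dvd_N hN0 hx hy hz hs' heq'
    (line_spec h hy.1 (max_le (by omega) (by omega)) (le_min (by omega) (by omega)))

theorem mem_divs : ∀ (f : List (ℕ × ℕ)), (∀ e ∈ f, e.1.Prime) → ∀ d, d ∣ value f → d ∈ divs f := by
  intro f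
  induction f with
  | nil => intro _ d hd; simpa [value, divs] using hd
  | cons e f ih =>
    obtain ⟨p, k⟩ := e
    intro hp d hd
    obtain ⟨d1, d2, h1, h2, rfl⟩ := Nat.dvd_mul.1 (show d ∣ p ^ k * value f from hd)
    obtain ⟨i, hi, rfl⟩ := (Nat.dvd_prime_pow (hp (p, k) (List.mem_cons_self ..))).1 h1
    exact List.mem_flatMap.2 ⟨d2, ih (fun e he => hp e (List.mem_cons_of_mem _ he)) d2 h2,
      List.mem_map.2 ⟨i, List.mem_range.2 (by omega), rfl⟩⟩

theorem residue_lt : ∀ d ∈ dataThree, d.1.2 < 128 ∧ d.2.1.2 < 128 := by decide +kernel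

theorem others_spec : ∀ q ∈ candList,
    q = 50232960 ∨ ∃ f ∈ others, (value f.1 : ℤ) = q := by
  decide +kernel

theorem others_prime : ∀ f ∈ others, ∀ e ∈ f.1, e.1.Prime := by
  intro f hf
  simp only [others, List.mem_cons, List.not_mem_nil, or_false] at hf
  rcases hf with rfl | rfl | rfl | rfl | rfl | rfl | rfl | rfl | rfl | rfl | rfl | rfl | rfl | rfl | rfl | rfl | rfl | rfl | rfl | rfl <;>
    norm_num [other0, other1, other2, other3, other4, other5, other6, other7, other8, other9,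
      other10, other11, other12, other13, other14, other15, other16, other17, other18, other19]

theorem inEntry_spec {T : List (ℕ × List ℤ)} {x : ℤ} {r : ℕ} {L : List ℤ}
    (h : inEntry T x = true) (hr : (x % 128).toNat = r) (hL : entry r T = some L) : x ∈ L := by
  simp only [inEntry, hr, hL, List.contains_iff_mem] at h
  exact h

include D in
theorem order_eq : N = 50232960 := by
  rcases others_spec _ D.mem_candList with h | ⟨f, hf, hfN⟩
  · exact_mod_cast h
  exfalso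
  have hfN' : value f.1 = N := by exact_mod_cast hfN
  obtain ⟨d, hd, x, y, z, hx, hy, hz, hs, heq⟩ := D.sum_three 0
  have h2 : vone (idx 0) = 0 := rfl
  have h3 : wPairs (idx 0) = -320 := rfl
  rw [h2, h3] at heq
  rw [h2] at hs
  have hx0 := side_ne_zero hx
  have hy0 := side_ne_zero hy
  have hz0 := side_ne_zero hz
  obtain ⟨hcov, hall⟩ := excluded f hf
  have hchk := List.all_eq_true.1 hall d hd
  simp only [covers, List.all_eq_true, Bool.or_eq_true, Bool.and_eq_true, decide_eq_true_eq,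
    hfN'] at hcov
  have hr128 : d.1.2 < 128 ∧ d.2.1.2 < 128 := residue_lt d hd
  have hmem : ∀ {p : ℕ × ℕ} {w : ℤ} {L : List ℤ}, Side N p w → p.2 < 128 →
      entry p.2 f.2 = some L → w ∈ L := by
    intro p w L hw hp hL
    rcases hcov w.natAbs (mem_divs f.1 (others_prime f hf) _ (by
        rw [hfN']; exact Int.natAbs_dvd_natAbs.2 hw.2.2.1)) with h | h
    · exfalso
      have h1 := hw.2.2.2
      rw [sq, ← abs_mul_self, Int.abs_eq_natAbs, Int.natAbs_mul] at h1
      have h1' : w.natAbs * w.natAbs ≤ N := by exact_mod_cast h1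
      omega
    · have hr : (w % 128).toNat = p.2 := by
        obtain ⟨m, hm⟩ := hw.1
        omega
      rcases Int.natAbs_eq w with e | e
      · rw [← e] at h; exact inEntry_spec h.1 hr hL
      · have h' := h.2
        rw [← e] at h'; exact inEntry_spec h' hr hL
  simp only [excludes] at hchk
  split at hchk
  swap
  · exact absurd hchk (by simp)
  rename_i X Y hX hY
  simp only [List.all_eq_true, hfN'] at hchk
  have h := hchk x (hmem hx hr128.1 hX) y (hmem hy hr128.2 hY)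
  have hzeq : -x - y = z := by omega
  rw [hzeq] at h
  have hzr : (z - (d.2.2.2 : ℤ)) % 128 = 0 := Int.emod_eq_zero_of_dvd hz.1
  simp only [beq_iff_eq, hz0, hzr, Bool.or_eq_true, Bool.not_eq_true', beq_eq_false_iff_ne,
    ne_eq, not_true_eq_false, false_or] at h
  refine h ?_
  have hxq : (x : ℚ) ≠ 0 := by exact_mod_cast hx0
  have hyq : (y : ℚ) ≠ 0 := by exact_mod_cast hy0
  have hzq : (z : ℚ) ≠ 0 := by exact_mod_cast hz0
  have : (N : ℚ) * ((d.1.1 : ℚ) * ((y : ℚ) * z) + (d.2.1.1 : ℚ) * ((x : ℚ) * z) +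
      (d.2.2.1 : ℚ) * ((x : ℚ) * y)) = -614400 * ((x : ℚ) * y * z) := by
    push_cast at heq
    field_simp at heq
    linear_combination heq
  exact_mod_cast this

end Numeric

end CfsgLib.JankoThree
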