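import Cfsg.Agent.Lib.JankoThree.SearchDef

/-!
Part 0 of the search for the orders.
-/

set_option autoImplicit false
set_option maxRecDepth 100000
set_option Elab.async false

namespace CfsgLib.JankoThree

theorem search0_0 : checkDatum ((36, 42), (400, 36), (1225, 51)) = true := by decide +kernel

theorem search0_1 : checkDatum ((1, 127), (400, 116), (900, 14)) = true := by decide +kernel

theorem search0_2 : checkDatum ((49, 103), (144, 44), (900, 110)) = true := by decide +kernel

theorem search0_3 : checkDatum ((4, 18), (400, 116), (729, 123)) = true := by decide +kernel

theorem search0_4 : checkDatum ((25, 85), (400, 116), (576, 56)) = true := by decide +kernel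

theorem search0_5 : checkDatum ((100, 42), (196, 30), (625, 57)) = true := by decide +kernel

theorem search0_6 : checkDatum ((100, 42), (225, 31), (576, 56)) = true := by decide +kernel

theorem search0_7 : checkDatum ((100, 122), (361, 99), (400, 36)) = true := by decide +kernel

end CfsgLib.JankoThree
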