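import Cfsg.Agent.Lib.JankoThree.Chars
import Cfsg.Agent.Lib.JankoThree.Checks
import Cfsg.Agent.Lib.BrauerCharacters.ClassMul

/-!
A finite simple group with one class of involutions whose involution centraliser is the model
`2^(1+4) : A₅`: special classes, fusion and the `2`-part of the order.
-/

set_option autoImplicit false
set_option maxRecDepth 10000
set_option linter.unusedSectionVars false
set_option linter.style.haveILetI false

open Cfsg

namespace CfsgLib.JankoThree

universe u

/-- The hypotheses. -/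
structure Cen (G : Type u) [Group G] where
  t : G
  ht : orderOf t = 2
  φ : K →* G
  inj : Function.Injective φ
  range : φ.range = Subgroup.centralizer ({t} : Set G)
  one : ∀ x y : G, orderOf x = 2 → orderOf y = 2 → IsConj x y

variable {G : Type u} [Group G] [Finite G] (d : Cen G)

namespace Cen

theorem t_sq : d.t * d.t = 1 := by
  rw [← pow_two, ← d.ht, pow_orderOf_eq_one]

theorem t_ne_one : d.t ≠ 1 := fun h => by simpa [h] using d.ht

theorem phi_comm (p : K) : d.φ p * d.t = d.t * d.φ p :=
  Subgroup.mem_centralizer_singleton_iff.1 (d.range ▸ ⟨p, rfl⟩)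

theorem exists_phi {x : G} (hx : x * d.t = d.t * x) : ∃ p, d.φ p = x := by
  have : x ∈ d.φ.range := d.range ▸ Subgroup.mem_centralizer_singleton_iff.2 hx
  exact this

theorem phi_kz : d.φ kz = d.t := by
  obtain ⟨p, hp⟩ := d.exists_phi (x := d.t) rfl
  have hk : code kz = 16 := rfl
  rcases central_check ⟨code p, code_lt p⟩ with h | h | ⟨j, hj⟩
  · exact absurd (by rw [← hp, code_inj (y := 1) (h.trans code_one.symm), map_one]) d.t_ne_one
  · rw [← hp, code_inj (x := p) (h.trans hk.symm)]
  · have hjlt : ![1, 2, 4, 8, 16, 512, 416, 960, 480] j < 1920 := by fin_cases j <;> norm_num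
    refine absurd ?_ hj
    have hc : p * ofCode (![1, 2, 4, 8, 16, 512, 416, 960, 480] j) =
        ofCode (![1, 2, 4, 8, 16, 512, 416, 960, 480] j) * p := d.inj (by
      rw [map_mul, map_mul, hp]; exact (d.phi_comm _).symm)
    have := congrArg code hc
    rwa [code_mul, code_mul, code_ofCode hjlt] at this

theorem card_centralizer : Nat.card (Subgroup.centralizer ({d.t} : Set G)) = 1920 := by
  rw [← d.range, ← Nat.card_congr (MonoidHom.ofInjective d.inj).toEquiv, card_K]

include d in
theorem dvd_card : 1920 ∣ Nat.card G := d.card_centralizer ▸ Subgroup.card_subgroup_dvd_card _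

theorem isConj_t {x : G} (h : x * x = 1) (h1 : x ≠ 1) : IsConj d.t x :=
  d.one _ _ d.ht (orderOf_eq_prime (by rwa [pow_two]) h1)

theorem isConj_t_iff {x : G} : IsConj d.t x ↔ x * x = 1 ∧ x ≠ 1 := by
  refine ⟨fun h => ?_, fun h => d.isConj_t h.1 h.2⟩
  obtain ⟨g, rfl⟩ := isConj_iff.1 h
  refine ⟨by rw [show g * d.t * g⁻¹ * (g * d.t * g⁻¹) = g * (d.t * d.t) * g⁻¹ by group, d.t_sq]
             group, fun h1 => d.t_ne_one ?_⟩
  rw [show d.t = g⁻¹ * (g * d.t * g⁻¹) * g by group, h1]; group

theorem code_pow (p : K) : ∀ n : ℕ, code (p ^ n) = cpowL (code p) n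
  | 0 => by rw [pow_zero]; rfl
  | n + 1 => by rw [pow_succ, code_mul, code_pow p n]; rfl

theorem pow_jexp {p : K} (h : jexp (ty p) ≠ 0) : p ^ jexp (ty p) = kz := by
  have := jexp_check ⟨code p, code_lt p⟩
  have hty : Fin.ofNat 16 (cty (code p)) = ty p := rfl
  rw [hty] at this
  exact code_inj (by rw [code_pow, this h]; rfl)

/-- The special elements. -/
def special : Set G := {g | ∃ j : ℕ, g ^ j = d.t}

theorem pow_unique_involution {s : G} {i j : ℕ} (hi : orderOf (s ^ i) = 2)
    (hj : orderOf (s ^ j) = 2) : s ^ i = s ^ j := by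
  have key : ∀ i : ℕ, orderOf (s ^ i) = 2 → 2 * (i % orderOf s) = orderOf s := by
    intro i hi
    have hlt := Nat.mod_lt i (orderOf_pos s)
    have e1 : (s ^ (i % orderOf s)) = s ^ i := pow_mod_orderOf s i
    have h0 : i % orderOf s ≠ 0 := fun h => by
      rw [h, pow_zero] at e1; rw [← e1, orderOf_one] at hi; omega
    obtain ⟨k, hk⟩ : orderOf s ∣ 2 * (i % orderOf s) := by
      rw [orderOf_dvd_iff_pow_eq_one, mul_comm, pow_mul, e1, ← hi, pow_orderOf_eq_one]
    rcases k with _ | _ | k
    · omega
    · omega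
    · nlinarith
  rw [← pow_mod_orderOf s i, ← pow_mod_orderOf s j]
  congr 1
  have := key i hi
  have := key j hj
  omega

theorem ti (x : G) (hx : x ∉ Subgroup.centralizer ({d.t} : Set G)) (s : G) (hs : s ∈ d.special)
    (hsx : x⁻¹ * s * x ∈ d.special) : s = 1 := by
  refine absurd ?_ hx
  obtain ⟨i, hi⟩ := hs
  obtain ⟨j, hj⟩ := hsx
  have hj' : s ^ j = x * d.t * x⁻¹ := by
    rw [← hj]
    have : (x⁻¹ * s * x⁻¹⁻¹) ^ j = x⁻¹ * s ^ j * x⁻¹⁻¹ := conj_pow
    rw [inv_inv] at this
    rw [this]
    group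
  have h2 : orderOf (x * d.t * x⁻¹) = 2 := by
    rw [← d.ht]; exact orderOf_injective (MulAut.conj x).toMonoidHom (MulAut.conj x).injective _
  have := pow_unique_involution (s := s) (i := i) (j := j) (hi.symm ▸ d.ht) (hj'.symm ▸ h2)
  rw [hi, hj'] at this
  exact Subgroup.mem_centralizer_singleton_iff.2 (mul_inv_eq_iff_eq_mul.1 this.symm)

include d in
theorem not_256_dvd : ¬ 256 ∣ Nat.card G := by
  classical
  intro h
  let T : Subgroup K :=
    { carrier := {x | inTwo (code x) = true}
      one_mem' := by show inTwo (code 1) = true; rw [code_one]; decide +kernel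
      mul_mem' := fun {a b} ha hb => by
        show inTwo (code (a * b)) = true
        rw [code_mul]
        exact (two_check ⟨code a, code_lt a⟩ ha).1 ⟨code b, code_lt b⟩ hb
      inv_mem' := fun {a} ha => by
        have hp : ∀ n : ℕ, inTwo (code (a ^ n)) = true := by
          intro n
          induction n with
          | zero => rw [pow_zero, code_one]; decide +kernel
          | succ n ih =>
            rw [pow_succ, code_mul]
            exact (two_check ⟨code (a ^ n), code_lt _⟩ ih).1 ⟨code a, code_lt a⟩ ha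
        have h1 : a ^ (orderOf a - 1) * a = 1 := by
          rw [← pow_succ, Nat.sub_add_cancel (orderOf_pos a), pow_orderOf_eq_one]
        exact eq_inv_of_mul_eq_one_left h1 ▸ hp _ }
  have hT : Nat.card T = 2 ^ 7 := by
    rw [show (2 : ℕ) ^ 7 = 128 by norm_num, ← two_card, Nat.card_eq_fintype_card, Fintype.card_subtype,
      ← List.toFinset_card_of_nodup ((List.nodup_range).filter _)]
    refine Finset.card_bij (fun x _ => code x) ?_ (fun x _ y _ h => code_inj h) ?_
    · intro x hx
      simp only [Finset.mem_filter, Finset.mem_univ, true_and] at hx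
      simpa [code_lt x] using (show inTwo (code x) = true from hx)
    · intro n hn
      simp only [List.mem_toFinset, List.mem_filter, List.mem_range] at hn
      exact ⟨ofCode n, by simpa [T, code_ofCode hn.1] using hn.2, code_ofCode hn.1⟩
  haveI : Fact (Nat.Prime 2) := ⟨Nat.prime_two⟩
  have hU : Nat.card (T.map d.φ) = 2 ^ 7 := by rw [Subgroup.card_map_of_injective d.inj, hT]
  obtain ⟨U, hUc, hle⟩ := Sylow.exists_subgroup_card_pow_succ (p := 2) (n := 7)
    (show 2 ^ (7 + 1) ∣ Nat.card G from h) hU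
  have hidx : ((T.map d.φ).subgroupOf U).index = 2 := by
    have := Subgroup.card_mul_index ((T.map d.φ).subgroupOf U)
    rw [Nat.card_congr (Subgroup.subgroupOfEquivOfLe hle).toEquiv, hU, hUc] at this
    omega
  haveI := Subgroup.normal_of_index_eq_two hidx
  have hkz : kz ∈ T := by show inTwo (code kz) = true; decide +kernel
  have hUC : U ≤ Subgroup.centralizer ({d.t} : Set G) := by
    intro y hy
    have hnorm : ∀ w ∈ T.map d.φ, y * w * y⁻¹ ∈ T.map d.φ := fun w hw =>
      (inferInstance : ((T.map d.φ).subgroupOf U).Normal).conj_mem ⟨w, hle hw⟩ hw ⟨y, hy⟩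
    have hnorm' : ∀ w ∈ T.map d.φ, y⁻¹ * w * y ∈ T.map d.φ := fun w hw => by
      have : y⁻¹ * w * y⁻¹⁻¹ ∈ T.map d.φ :=
        (inferInstance : ((T.map d.φ).subgroupOf U).Normal).conj_mem ⟨w, hle hw⟩ hw
          ⟨y⁻¹, U.inv_mem hy⟩
      rwa [inv_inv] at this
    obtain ⟨p, hpT, hp⟩ := hnorm d.t ⟨kz, hkz, d.phi_kz⟩
    have hcen : ∀ q ∈ T, p * q = q * p := fun q hq => d.inj (by
      rw [map_mul, map_mul, hp]
      obtain ⟨r, -, hr⟩ := hnorm' (d.φ q) ⟨q, hq, rfl⟩
      have hc := d.phi_comm r
      rw [hr] at hc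
      calc y * d.t * y⁻¹ * d.φ q = y * (d.t * (y⁻¹ * d.φ q * y)) * y⁻¹ := by group
        _ = y * (y⁻¹ * d.φ q * y * d.t) * y⁻¹ := by rw [hc]
        _ = d.φ q * (y * d.t * y⁻¹) := by group)
    refine Subgroup.mem_centralizer_singleton_iff.2 (mul_inv_eq_iff_eq_mul.1 ?_)
    rcases (two_check ⟨code p, code_lt p⟩ hpT).2 with e | e | ⟨j, hj, hne⟩
    · refine absurd ?_ d.t_ne_one
      rw [code_inj (y := 1) (e.trans code_one.symm), map_one] at hp
      exact conj_eq_one_iff.1 hp.symm
    · rw [← hp, code_inj (y := kz) (show code p = code kz from e), d.phi_kz]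
    · have hlt : ![1, 2, 4, 8, 16, 416, 960] j < 1920 := by fin_cases j <;> norm_num
      refine absurd ?_ hne
      have := congrArg code (hcen (ofCode (![1, 2, 4, 8, 16, 416, 960] j))
        (by show inTwo (code (ofCode _)) = true; rw [code_ofCode hlt]; exact hj))
      rwa [code_mul, code_mul, code_ofCode hlt] at this
  have := Subgroup.card_dvd_of_le hUC
  rw [hUc, d.card_centralizer] at this
  norm_num at this

end Cen

end CfsgLib.JankoThree
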